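import Cfsg.Agent.Depth.ADefs

/-!
# Depth: the trapezoid `tw` in closed form (helper46)
-/

set_option autoImplicit false

namespace Cfsg.Agent.Depth.L

open Finset

theorem card_trap (I Y i : ℕ) : ((range (4 * Y) ×ˢ range Y).filter (fun x => I + x.1 + x.2 = i)).card =
    min (i + 1 - I) (min Y (I + 5 * Y - 1 - i)) := by
  rw [Finset.card_nbij' (t := Ico (i + 1 - I - 4 * Y) (min Y (i + 1 - I))) (fun x => x.2) (fun b => (i - I - b, b))]
  · rw [Nat.card_Ico]
    omega
  all_goals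
    intro x hx
    simp only [coe_filter, mem_product, mem_range, Set.mem_ofPred_eq, coe_Ico, Set.mem_Ico, Prod.ext_iff, and_true] at hx ⊢
    try omega

theorem tw_eq (s i : ℕ) : tw s i = min (i + 1 - Iw s) (min (Yw s) (Iw s + 5 * Yw s - 1 - i)) := card_trap _ _ i

theorem tw_le (s i : ℕ) : tw s i ≤ Yw s := by
  rw [tw_eq]
  omega

theorem tw_zero_left {s i : ℕ} (h : i < Iw s) : tw s i = 0 := by
  rw [tw_eq]
  omega

theorem tw_zero_right {s i : ℕ} (h : Ew s ≤ i + 1) : tw s i = 0 := by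
  rw [tw_eq]
  unfold Ew at h
  omega

theorem tw_up {s i : ℕ} (h : i + 1 ≤ Iw s + Yw s) : tw s i = i + 1 - Iw s := by
  rw [tw_eq]
  omega

theorem tw_flat {s i : ℕ} (h : Iw s + Yw s ≤ i + 1) (h' : i + 1 ≤ Iw s + 4 * Yw s) : tw s i = Yw s := by
  rw [tw_eq]
  omega

theorem tw_down {s i : ℕ} (h : Iw s + 4 * Yw s ≤ i + 1) : tw s i = Ew s - 1 - i := by
  rw [tw_eq]
  unfold Ew
  omega

theorem three_nw (s : ℕ) : 3 * nw s = 5 * Yw s := by
  unfold nw Yw
  omega

theorem Ew_eq (s : ℕ) : Ew s = Iw s + 3 * nw s := by rw [three_nw, Ew]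

/-- sums against the trapezoid are double sums -/
theorem sum_tw {M : Type*} [AddCommMonoid M] (s : ℕ) (f : ℕ → M) :
    ∑ i ∈ range (Ew s), tw s i • f i = ∑ a ∈ range (4 * Yw s), ∑ b ∈ range (Yw s), f (Iw s + a + b) := by
  rw [← Finset.sum_product', ← Finset.sum_fiberwise_of_maps_to (t := range (Ew s)) (g := fun x : ℕ × ℕ => Iw s + x.1 + x.2)]
  · refine Finset.sum_congr rfl fun i _ => ?_
    rw [tw, ← Finset.sum_const]
    exact Finset.sum_congr rfl fun x hx => by rw [(mem_filter.1 hx).2]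
  · intro x hx
    simp only [mem_product, mem_range, Ew] at hx ⊢
    omega

theorem sum_tw_one (s : ℕ) : ∑ i ∈ range (Ew s), (tw s i : ℝ) = Tw s := by
  simpa [Tw] using sum_tw s fun _ => (1 : ℝ)

end Cfsg.Agent.Depth.L
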