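import Cfsg.Agent.Depth.L.Iface
import Cfsg.Agent.Depth.S.LPa

/-!
# Depth L: the eighth moment from a rounded autocorrelation, `boxAna` (helper77)
-/

set_option autoImplicit false

namespace Cfsg.Agent.Depth.L

open Finset Polynomial Cfsg.Agent.Depth.S

namespace Ana

theorem ev_eq {P : ℤ[X]} {n : ℕ} (h : P.natDegree < n) (x : ℝ) :
    aeval (ex x) P = ∑ j ∈ range n, (P.coeff j : ℂ) * ex (x * j) := by
  rw [aeval_eq_sum_range' h]
  exact sum_congr rfl fun j _ => by rw [zsmul_eq_mul, ex_mul_nat]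

theorem pars {P : ℤ[X]} {n M : ℕ} (h : P.natDegree < n) (hn : n ≤ M) :
    ∑ k ∈ range M, ‖aeval (ex (k / M)) P‖ ^ 2 = M * ∑ j ∈ range n, (P.coeff j : ℝ) ^ 2 := by
  have h1 := parseval_range (M := M) (by omega) hn (fun j => (P.coeff j : ℂ)) 0
  simp only [zero_add, Complex.norm_intCast, sq_abs] at h1
  rw [← h1]
  exact sum_congr rfl fun k _ => by rw [ev_eq h]

theorem norm_reflect {P : ℤ[X]} {N : ℕ} (h : P.natDegree ≤ N) (x : ℝ) :
    ‖aeval (ex x) (reflect N P)‖ = ‖aeval (ex x) P‖ := by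
  let _ : Invertible (ex (-x)) := ⟨ex x, ex_mul_neg x, by rw [mul_comm, ex_mul_neg]⟩
  have h1 : aeval (ex x) (reflect N P) * ex (-x) ^ N = aeval (ex (-x)) P :=
    eval₂_reflect_mul_pow (algebraMap ℤ ℂ) (ex (-x)) N P h
  have h2 : aeval (ex (-x)) P = (starRingEnd ℂ) (aeval (ex x) P) := by
    rw [← conj_ex]
    exact aeval_algHom_apply (starRingEnd ℂ).toIntAlgHom (ex x) P
  have h3 := congrArg norm (h1.trans h2)
  rwa [norm_mul, norm_pow, norm_ex, one_pow, mul_one, Complex.norm_conj] at h3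

theorem norm_le {P : ℤ[X]} {n : ℕ} (h : P.natDegree < n) {b : ℝ} (hb : ∀ j, |(P.coeff j : ℝ)| ≤ b) (x : ℝ) :
    ‖aeval (ex x) P‖ ≤ n * b := by
  rw [ev_eq h]
  refine (norm_sum_le _ _).trans ((sum_le_card_nsmul _ _ b fun j _ => ?_).trans (by rw [card_range, nsmul_eq_mul]))
  rw [norm_mul, norm_ex, mul_one, Complex.norm_intCast]
  exact hb j

theorem sq_le {m : ℝ} (hm : 0 < m) (a b : ℝ) : (a + b) ^ 2 ≤ (1 + 1 / m) * a ^ 2 + (1 + m) * b ^ 2 := by
  have h1 : 0 ≤ (a - m * b) ^ 2 / m := by positivity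
  have h2 : (1 + 1 / m) * a ^ 2 + (1 + m) * b ^ 2 = (a + b) ^ 2 + (a - m * b) ^ 2 / m := by
    field_simp
    ring
  linarith

theorem four_le {m : ℝ} (hm : 0 < m) (a b : ℝ) : (a + b) ^ 4 ≤ (1 + 1 / m) ^ 3 * a ^ 4 + (1 + m) ^ 3 * b ^ 4 := by
  have h1 := pow_le_pow_left₀ (sq_nonneg _) (sq_le hm a b) 2
  have h2 := sq_le hm ((1 + 1 / m) * a ^ 2) ((1 + m) * b ^ 2)
  calc (a + b) ^ 4 = ((a + b) ^ 2) ^ 2 := by ring
    _ ≤ _ := h1.trans h2
    _ = _ := by ring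

theorem norm_four (P : ℤ[X]) (z : ℂ) : ‖aeval z (P * P)‖ ^ 2 = ‖aeval z P‖ ^ 4 := by
  rw [map_mul, norm_mul]; ring

end Ana

open Ana in
/-- **the analysis box** -/
theorem boxAna : BoxAna := by
  intro N g H' m hm hd h
  have hG := natDegree_pol N g
  generalize hH : pol (N + 1) g * reflect N (pol (N + 1) g) = H at h
  have d1 : H.natDegree ≤ 2 * N := by
    have := natDegree_reflect_le (p := pol (N + 1) g) (N := N)
    rw [← hH]
    exact natDegree_mul_le.trans (by omega)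
  have d2 : (H * H).natDegree < 4 * (N + 1) := lt_of_le_of_lt natDegree_mul_le (by omega)
  have d3 : (H' * H').natDegree < 4 * N + 1 := lt_of_le_of_lt natDegree_mul_le (by omega)
  obtain ⟨E, hE⟩ : ∃ E : ℤ[X], E = H - C (2 ^ 25) * H' := ⟨_, rfl⟩
  have d4 : E.natDegree < 2 * N + 1 := by
    have := natDegree_C_mul_le (2 ^ 25 : ℤ) H'
    rw [hE]
    exact lt_of_le_of_lt (natDegree_sub_le _ _) (by omega)
  have e1 : ∀ j, |(E.coeff j : ℝ)| ≤ 2 ^ 24 := fun j => by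
    rw [hE, coeff_sub, coeff_C_mul]
    exact_mod_cast h j
  refine ⟨fun i => ((H * H).coeff i : ℝ), fun x => ?_, ?_⟩
  · have h1 : ∑ j ∈ range (N + 1), (g j : ℂ) * ex (x * j) = aeval (ex x) (pol (N + 1) g) := by
      rw [ev_eq (Nat.lt_succ_of_le hG)]
      exact sum_congr rfl fun j hj => by rw [coeff_pol, if_pos (mem_range.1 hj)]
    have h2 : SS (4 * (N + 1)) (fun i => ((H * H).coeff i : ℝ)) x = aeval (ex x) (H * H) := by
      rw [ev_eq d2, SS]
      simp only [Complex.ofReal_intCast]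
    rw [h1, h2, ← hH, map_mul, map_mul, norm_mul, norm_mul, norm_reflect hG]
    ring
  have hM : (0 : ℝ) < (4 * (N + 1) : ℕ) := by positivity
  refine le_of_mul_le_mul_left ?_ hM
  have p1 := pars d2 le_rfl
  have p2 := pars (M := 4 * (N + 1)) d3 (by omega)
  have p3 := pars (M := 4 * (N + 1)) d4 (by omega)
  have p4 : ∑ j ∈ range (2 * N + 1), (E.coeff j : ℝ) ^ 2 ≤ (2 * N + 1) * 2 ^ 48 := by
    refine (sum_le_card_nsmul _ _ (2 ^ 48) fun j _ => ?_).trans (by rw [card_range, nsmul_eq_mul]; push_cast; rfl)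
    rw [← sq_abs]
    exact (pow_le_pow_left₀ (abs_nonneg _) (e1 j) 2).trans (by norm_num)
  have p5 : ∀ x : ℝ, ‖aeval (ex x) (H * H)‖ ^ 2 ≤ (1 + 1 / m) ^ 3 * 2 ^ 100 * ‖aeval (ex x) (H' * H')‖ ^ 2 +
      (1 + m) ^ 3 * (2 * N + 1) ^ 2 * 2 ^ 48 * ‖aeval (ex x) E‖ ^ 2 := fun x => by
    have h1 : ‖aeval (ex x) H‖ ≤ 2 ^ 25 * ‖aeval (ex x) H'‖ + ‖aeval (ex x) E‖ := by
      rw [show H = C (2 ^ 25) * H' + E by rw [hE]; ring, map_add, map_mul, aeval_C]
      refine (norm_add_le _ _).trans (le_of_eq ?_)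
      rw [norm_mul, eq_intCast, Complex.norm_intCast]
      norm_num
    have h2 := pow_le_pow_left₀ (norm_nonneg _) (norm_le d4 e1 x) 2
    have h3 : ‖aeval (ex x) E‖ ^ 4 ≤ (2 * N + 1) ^ 2 * 2 ^ 48 * ‖aeval (ex x) E‖ ^ 2 := by
      rw [show ‖aeval (ex x) E‖ ^ 4 = ‖aeval (ex x) E‖ ^ 2 * ‖aeval (ex x) E‖ ^ 2 by ring]
      refine mul_le_mul_of_nonneg_right (h2.trans (le_of_eq ?_)) (sq_nonneg _)
      push_cast
      ring
    have h4 := mul_le_mul_of_nonneg_left h3 (show 0 ≤ (1 + m) ^ 3 by positivity)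
    rw [norm_four, norm_four]
    refine ((pow_le_pow_left₀ (norm_nonneg _) h1 4).trans (four_le hm _ _)).trans ?_
    rw [mul_pow]
    linarith
  have p6 := mul_le_mul_of_nonneg_left (mul_le_mul_of_nonneg_left p4 hM.le)
    (show (0 : ℝ) ≤ (1 + m) ^ 3 * (2 * N + 1) ^ 2 * 2 ^ 48 by positivity)
  rw [← p1]
  refine (sum_le_sum fun k _ => p5 _).trans ?_
  rw [sum_add_distrib, ← mul_sum, ← mul_sum, p2, p3]
  linarith

end Cfsg.Agent.Depth.L
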