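import Cfsg.Agent.Depth.L.Iface

/-!
# Depth L: three pieces give the facts of one window (helper62)
-/

set_option autoImplicit false
set_option maxHeartbeats 400000

namespace Cfsg.Agent.Depth.L

open Finset

namespace Win

theorem ex_add (x y : ℝ) : ex (x + y) = ex x * ex y := by
  rw [ex, ex, ex, ← Complex.exp_add]
  push_cast
  ring_nf

theorem norm_ex (x : ℝ) : ‖ex x‖ = 1 := by
  rw [ex, show 2 * (Real.pi : ℂ) * Complex.I * x = ((2 * Real.pi * x : ℝ) : ℂ) * Complex.I by push_cast; ring]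
  exact Complex.norm_exp_ofReal_mul_I _

theorem sum_three {M : Type*} [AddCommMonoid M] (I n : ℕ) (f : ℕ → M) (h : ∀ i, i < I → f i = 0) :
    ∑ i ∈ range (I + 3 * n), f i = ∑ k : Fin 3, ∑ j ∈ range n, f (I + k * n + j) := by
  rw [show I + 3 * n = I + n + n + n by ring, sum_range_add, sum_range_add, sum_range_add,
    sum_eq_zero fun i hi => h i (mem_range.1 hi), zero_add, Fin.sum_univ_three]
  simp [two_mul, add_assoc]

/-- the glued weights -/
noncomputable def glue (I n : ℕ) (f : Fin 3 → ℕ → ℝ) (i : ℕ) : ℝ :=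
  ∑ k : Fin 3, if I + k * n ≤ i ∧ i < I + k * n + n then f k (i - (I + k * n)) else 0

theorem glue_eq (I n : ℕ) (f : Fin 3 → ℕ → ℝ) (k : Fin 3) {j : ℕ} (hj : j < n) : glue I n f (I + k * n + j) = f k j := by
  rw [glue, sum_eq_single k, if_pos (by omega), Nat.add_sub_cancel_left]
  · intro l _ hl
    rw [if_neg]
    fin_cases k <;> fin_cases l <;> simp at hl ⊢ <;> omega
  · simp

theorem glue_left (I n : ℕ) (f : Fin 3 → ℕ → ℝ) {i : ℕ} (hi : i < I) : glue I n f i = 0 :=
  sum_eq_zero fun k _ => if_neg (by omega)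

theorem glue_ne {I n : ℕ} {f : Fin 3 → ℕ → ℝ} {i : ℕ} (h : glue I n f i ≠ 0) :
    ∃ (k : Fin 3) (j : ℕ), j < n ∧ i = I + k * n + j ∧ f k j ≠ 0 := by
  obtain ⟨k, -, hk⟩ := exists_ne_zero_of_sum_ne_zero h
  split_ifs at hk with h1
  · exact ⟨k, i - (I + k * n), by omega, by omega, hk⟩
  · exact absurd rfl hk

theorem hoelder (w y : Fin 3 → ℝ) (hw : ∀ k, 0 < w k) (h1 : ∑ k, w k = 1) (hy : ∀ k, 0 ≤ y k) :
    ∑ k, y k ≤ (∑ k, y k ^ 8 / w k ^ 7) ^ (1 / 8 : ℝ) := by
  have h := Real.pow_arith_mean_le_arith_mean_pow univ w (fun k => y k / w k) (fun k _ => (hw k).le) h1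
    (fun k _ => div_nonneg (hy k) (hw k).le) 8
  have e1 : ∑ k, w k * (y k / w k) = ∑ k, y k := sum_congr rfl fun k _ => mul_div_cancel₀ (y k) (hw k).ne'
  have e2 : ∑ k, w k * (y k / w k) ^ 8 = ∑ k, y k ^ 8 / w k ^ 7 :=
    sum_congr rfl fun k _ => by have := (hw k).ne'; field_simp
  rw [e1, e2] at h
  have h0 : 0 ≤ ∑ k, y k := sum_nonneg fun k _ => hy k
  calc ∑ k, y k = ((∑ k, y k) ^ 8) ^ (1 / 8 : ℝ) := by
        rw [one_div]; exact (Real.pow_rpow_inv_natCast h0 (by norm_num : (8 : ℕ) ≠ 0)).symm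
    _ ≤ _ := Real.rpow_le_rpow (pow_nonneg h0 8) h (by norm_num)

theorem Tw_pos (s : ℕ) : 0 < Tw s := by
  have h : 0 < Yw s := by
    have : 0 < kk s := by
      unfold kk
      rcases s with _ | _ | _ | _ | _ | _ | _ | _ | s <;> simp
    unfold Yw
    omega
  have h' : (0 : ℝ) < Yw s := Nat.cast_pos.2 h
  unfold Tw
  positivity

end Win

open Win in
/-- **three pieces give the facts of one window** -/
theorem boxWin : BoxWin := by
  intro c1 s K e b2 b8 w e0 n8 n2 hK hw hw1 hP he hb2 hb8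
  choose Λ g c hS h2 hE h8 hx using hP
  have hT := Tw_pos s
  have hK' : (0 : ℝ) < K := Nat.cast_pos.2 hK
  set u : ℝ := 2 ^ 37 / K with hu
  have hu0 : 0 < u := by positivity
  refine ⟨glue (Iw s) (nw s) fun k j => u * Λ k j, fun i => sum_nonneg fun k _ => by split_ifs <;> positivity,
    fun i hi => ?_, ?_, fun k m => (u / Tw s) ^ 4 / Real.sqrt (w k ^ 7) * c k m, ?_, fun x => ?_⟩
  · obtain ⟨k, j, hj, rfl, h⟩ := glue_ne hi
    refine ⟨by omega, ?_, hS k j hj fun e => h (by rw [e, Nat.cast_zero, mul_zero])⟩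
    have : (k : ℕ) * nw s ≤ 2 * nw s := Nat.mul_le_mul_right _ (by omega)
    rw [Ew_eq]
    omega
  · rw [Ew_eq, sum_three _ _ _ fun i hi => by rw [glue_left _ _ _ hi]; ring]
    refine le_trans ?_ hb2
    rw [sum_mul]
    refine sum_le_sum fun k _ => ?_
    rw [sum_congr rfl (g := fun j => (Λ k j : ℝ) ^ 2 * u ^ 2) fun j hj => by rw [glue_eq _ _ _ k (mem_range.1 hj)]; ring,
      ← sum_mul]
    exact mul_le_mul_of_nonneg_right (h2 k) (by positivity)
  · have h3 : (∑ k, b8 k / w k ^ 7) * (u / Tw s) ^ 8 ≤ n8 := by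
      rw [div_pow, ← mul_div_assoc, div_le_iff₀ (by positivity)]
      exact hb8
    refine le_trans ?_ h3
    rw [sum_mul]
    refine sum_le_sum fun k _ => ?_
    have := hw k
    simp only [mul_pow, ← mul_sum]
    rw [div_pow, Real.sq_sqrt (by positivity), ← pow_mul, div_mul_eq_mul_div, div_mul_eq_mul_div, mul_comm]
    gcongr
    exact h8 k
  · rw [Ew_eq, sum_three _ _ _ fun i hi => by rw [glue_left _ _ _ hi, tw_zero_left hi]; simp]
    have h4 : ∀ k : Fin 3, ‖∑ j ∈ range (nw s), ((glue (Iw s) (nw s) (fun k j => u * Λ k j) (Iw s + k * nw s + j) -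
        tw s (Iw s + k * nw s + j) * (rhoQ (60 * (Iw s + k * nw s + j) + c1) : ℝ) : ℝ) : ℂ) *
          ex (x * (Iw s + k * nw s + j : ℕ))‖ ≤ u * e k + u * ‖∑ j ∈ range (nw s), (g k j : ℂ) * ex (x * j)‖ := fun k => by
      rw [sum_congr rfl (g := fun j => (u : ℂ) * ex (x * (Iw s + k * nw s : ℕ)) *
        ((((Λ k j : ℝ) - tw s (Iw s + k * nw s + j) * (rhoQ (60 * (Iw s + k * nw s + j) + c1) : ℝ) * K / 2 ^ 37 - g k j : ℝ) : ℂ) *
          ex (x * j) + (g k j : ℂ) * ex (x * j))) fun j hj => ?_, ← mul_sum, norm_mul, norm_mul, norm_ex, mul_one,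
        Complex.norm_real, Real.norm_of_nonneg hu0.le, ← mul_add, sum_add_distrib]
      · refine mul_le_mul_of_nonneg_left ((norm_add_le _ _).trans (add_le_add_left ?_ _)) hu0.le
        refine (norm_sum_le _ _).trans (le_trans (le_of_eq (sum_congr rfl fun j _ => ?_)) (hE k))
        rw [norm_mul, norm_ex, mul_one, Complex.norm_real, Real.norm_eq_abs]
      · rw [glue_eq _ _ _ k (mem_range.1 hj), Nat.cast_add (Iw s + k * nw s) j, mul_add x, ex_add, hu]
        have : (K : ℂ) ≠ 0 := Nat.cast_ne_zero.2 hK.ne'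
        push_cast
        field_simp
        ring
    refine (norm_sum_le _ _).trans ((sum_le_sum fun k _ => h4 k).trans ?_)
    rw [sum_add_distrib, ← mul_sum, mul_add, mul_comm u, mul_comm (Tw s) e0]
    refine add_le_add he ?_
    have h5 := hoelder w (fun k => u / Tw s * ‖∑ j ∈ range (nw s), (g k j : ℂ) * ex (x * j)‖) hw hw1 fun k => by positivity
    rw [sum_congr rfl (g := fun k => Tw s * (u / Tw s * ‖∑ j ∈ range (nw s), (g k j : ℂ) * ex (x * j)‖)) fun k _ => by
      field_simp, ← mul_sum]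
    refine mul_le_mul_of_nonneg_left (h5.trans (le_of_eq ?_)) hT.le
    congr 1
    refine sum_congr rfl fun k _ => ?_
    have := hw k
    have h6 : SS (4 * nw s) (fun m => (u / Tw s) ^ 4 / Real.sqrt (w k ^ 7) * c k m) x =
        (((u / Tw s) ^ 4 / Real.sqrt (w k ^ 7) : ℝ) : ℂ) * SS (4 * nw s) (c k) x := by
      rw [SS, SS, mul_sum]
      exact sum_congr rfl fun m _ => by rw [Complex.ofReal_mul, mul_assoc]
    rw [h6, norm_mul, Complex.norm_real, Real.norm_of_nonneg (by positivity), ← hx k x, mul_pow, mul_pow, div_pow _ _ 2,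
      Real.sq_sqrt (by positivity)]
    ring

end Cfsg.Agent.Depth.L
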