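import Cfsg.Agent.Depth.L.Run
import Cfsg.Agent.Depth.L.Win

/-!
# Depth L: three runs give the facts of a window (helper59)
-/

set_option autoImplicit false

namespace Cfsg.Agent.Depth.L

open Finset

/-- free parameters of a piece -/
structure Fr where
  a : ℤ
  b : ℤ
  a' : ℤ
  b' : ℤ
  κ : ℕ
  b2 : ℕ
  bc : ℕ
  bt : ℕ
  m : ℕ
  m' : ℕ
  w : ℕ

/-- first piece -/
def pA (c1 s K : ℕ) (q : Fr) : Par :=
  ⟨c1, Iw s, nw s - 1, K, Yw s, 1, 1, Yw s, 0, q.a, q.b, q.a', q.b', q.κ, q.b2, q.bc, q.bt⟩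

/-- second piece -/
def pB (c1 s K : ℕ) (q : Fr) : Par :=
  ⟨c1, Iw s + nw s, nw s - 1, K, nw s / 2, Yw s, 0, Yw s, 0, q.a, q.b, q.a', q.b', q.κ, q.b2, q.bc, q.bt⟩

/-- third piece -/
def pC (c1 s K : ℕ) (q : Fr) : Par :=
  ⟨c1, Iw s + 2 * nw s, nw s - 1, K, 4 * Yw s - 2 * nw s, Yw s, 0, (nw s - 1 : ℕ), -1, q.a, q.b, q.a', q.b', q.κ, q.b2,
    q.bc, q.bt⟩

/-- the term of a piece in the bound for the eighth moment -/
noncomputable def t8 (s : ℕ) (q : Fr) : ℝ := b8 (nw s - 1) q.bc q.bt q.m q.m' / ((q.w : ℝ) / 1000) ^ 7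

/-- the numerical conditions of a window -/
def winOK (s K : ℕ) (q0 q1 q2 : Fr) : Prop :=
  (3 * (nw s * (1 / 2 + 69 * Yw s / 2 ^ 37)) + 2 * (q0.κ + q1.κ + q2.κ) : ℝ) * (2 ^ 37 / K) ≤ 0.001 * Tw s ∧
    (q0.b2 + q1.b2 + q2.b2 : ℝ) * (2 ^ 37 / K) ^ 2 ≤ n2T s / 10 ^ 9 * Tw s ^ 2 ∧
    (t8 s q0 + t8 s q1 + t8 s q2) * (2 ^ 37 / K) ^ 8 ≤ n8T s / 10 ^ 22 * Tw s ^ 8

/-- the discrete conditions of a window -/
def winD (c1 s K : ℕ) (q0 q1 q2 : Fr) : Prop :=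
  parOK (pA c1 s K q0) (Yw s) ∧ parOK (pB c1 s K q1) (Yw s) ∧ parOK (pC c1 s K q2) (Yw s) ∧ 0 < K ∧
    (0 < q0.m ∧ 0 < q1.m ∧ 0 < q2.m) ∧ (0 < q0.m' ∧ 0 < q1.m' ∧ 0 < q2.m') ∧ (0 < q0.w ∧ 0 < q1.w ∧ 0 < q2.w) ∧
      q0.w + q1.w + q2.w = 1000

instance (c1 s K : ℕ) (q0 q1 q2 : Fr) : Decidable (winD c1 s K q0 q1 q2) := by unfold winD; infer_instance

theorem win (hT : BoxTab) (hW : BoxTabW) {c1 S R s K : ℕ} {q0 q1 q2 : Fr} (hS : SD c1 S R)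
    (h0 : runP S R (pA c1 s K q0) = true) (h1 : runP S R (pB c1 s K q1) = true) (h2 : runP S R (pC c1 s K q2) = true)
    (hD : winD c1 s K q0 q1 q2) (h : winOK s K q0 q1 q2) :
    ∃ lam : ℕ → ℝ, LFacts c1 s 0.001 (n8T s / 10 ^ 22) (n2T s / 10 ^ 9) lam := by
  obtain ⟨d0, d1, d2, dK, dm, dm', dw, dw'⟩ := hD
  have e := three_nw s
  have n0 : 0 < nw s - 1 := d0.1
  have e' : nw s - 1 + 1 = nw s := by omega
  have e'' : ((nw s - 1 : ℕ) : ℝ) + 1 = nw s := by exact_mod_cast e'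
  have f0 := run_sound hT hW (P := pA c1 s K q0) hS d0 (t := fun j => tw s (Iw s + 0 * nw s + j)) (fun j hj => ⟨by
    simp only [pA, seg, tw_eq] at hj ⊢
    split_ifs <;> omega, tw_le _ _⟩) (Nat.cast_pos.2 dm.1) (Nat.cast_pos.2 dm'.1) h0
  have f1 := run_sound hT hW (P := pB c1 s K q1) hS d1 (t := fun j => tw s (Iw s + 1 * nw s + j)) (fun j hj => ⟨by
    simp only [pB, seg, tw_eq] at hj ⊢
    split_ifs <;> omega, tw_le _ _⟩) (Nat.cast_pos.2 dm.2.1) (Nat.cast_pos.2 dm'.2.1) h1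
  have f2 := run_sound hT hW (P := pC c1 s K q2) hS d2 (t := fun j => tw s (Iw s + 2 * nw s + j)) (fun j hj => ⟨by
    simp only [pC, seg, tw_eq] at hj ⊢
    split_ifs <;> omega, tw_le _ _⟩) (Nat.cast_pos.2 dm.2.2) (Nat.cast_pos.2 dm'.2.2) h2
  simp only [pA, pB, pC, e', e''] at f0 f1 f2
  refine boxWin c1 s K ![_, _, _] ![_, _, _] ![_, _, _] ![q0.w / 1000, q1.w / 1000, q2.w / 1000] _ _ _ dK ?_ ?_
    (Fin.forall_fin_succ.2 ⟨by simpa using f0, Fin.forall_fin_succ.2 ⟨by simpa using f1,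
      Fin.forall_fin_succ.2 ⟨f2, fun i => i.elim0⟩⟩⟩) ?_ ?_ ?_
  · have := dw.1
    have := dw.2.1
    have := dw.2.2
    intro k
    fin_cases k <;> simpa
  · have : (q0.w + q1.w + q2.w : ℝ) = 1000 := by exact_mod_cast dw'
    simp only [Fin.sum_univ_three, Matrix.cons_val]
    linarith
  · refine le_trans (le_of_eq ?_) h.1
    simp only [Fin.sum_univ_three, Matrix.cons_val]
    ring
  · simpa only [Fin.sum_univ_three, Matrix.cons_val] using h.2.1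
  · simpa only [Fin.sum_univ_three, Matrix.cons_val, t8, b8] using h.2.2

end Cfsg.Agent.Depth.L
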