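import Cfsg.Agent.Depth.L.Sp

/-!
# Depth L: lanes of safe primes (helper46)

`SD c S S'`: `S` is a certified transposed bit set of safe primes `60 i + c` (bit `56 t + u` stands for `i = 491520 u + t`),
`S'` is its reversal.  `sb S i`, `SD.safe`; `lanesF`, `lanesR` with `SD.lanesF_eq`, `SD.lanesR_eq`.
-/

set_option autoImplicit false

namespace Cfsg.Agent.Depth.L

open Finset

/-! ### reversal -/

/-- `y` is the reversal of the `n`-bit number `x` -/
def RV (n x y : ℕ) : Prop :=
  (∀ a b, a + b + 1 = n → x.testBit a = y.testBit b) ∧ ∀ a, n ≤ a → x.testBit a = false ∧ y.testBit a = false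

def rleaf (n fuel : ℕ) : ℕ → ℕ → Bool :=
  Nat.rec (motive := fun _ => ℕ → ℕ → Bool) (fun _ _ => false)
    (fun _ ih x y => cond (Nat.beq x 0) (Nat.beq y 0)
      ((fun b => and (Nat.ble b n) (ih (Nat.xor x (Nat.shiftLeft 1 b)) (Nat.xor y (Nat.shiftLeft 1 (Nat.sub n b))))) (low x))) fuel

theorem rleaf_spec {n fuel x y : ℕ} (h : rleaf n fuel x y = true) : RV (n + 1) x y := by
  induction fuel generalizing x y with
  | zero => exact absurd h (by change ¬ false = true; decide)
  | succ f ih =>
    have e : rleaf n (f + 1) x y = cond (Nat.beq x 0) (Nat.beq y 0)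
      (Nat.ble (low x) n && rleaf n f (x ^^^ 1 <<< low x) (y ^^^ 1 <<< (n - low x))) := rfl
    rw [e] at h
    cases h0 : Nat.beq x 0 with
    | true =>
      rw [h0, cond_true] at h
      rw [Nat.eq_of_beq_eq_true h0, Nat.eq_of_beq_eq_true h]
      exact ⟨fun _ _ _ => by simp, fun _ _ => by simp⟩
    | false =>
      rw [h0, cond_false, Bool.and_eq_true] at h
      have h1 : low x ≤ n := Nat.le_of_ble_eq_true h.1
      obtain ⟨h2, h3⟩ := ih h.2
      generalize low x = c at h1 h2 h3
      simp only [Nat.testBit_xor, Nat.one_shiftLeft, Nat.testBit_two_pow] at h2 h3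
      refine ⟨fun a b hab => ?_, fun a ha => ?_⟩
      · have h4 := h2 a b hab
        rw [show decide (n - c = b) = decide (c = a) from decide_eq_decide.2 (by omega)] at h4
        simpa using h4
      · have h4 := h3 a ha
        rw [decide_eq_false (show ¬ c = a by omega), decide_eq_false (show ¬ n - c = a by omega)] at h4
        simpa using h4

theorem RV.join {n n' x y x' y' : ℕ} (N : ℕ) (h : RV n x y) (h' : RV n' x' y') (hN : Nat.beq N (n + n') = true) :
    RV N (Nat.lor x (Nat.shiftLeft x' n)) (Nat.lor y' (Nat.shiftLeft y n')) := by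
  obtain rfl := Nat.eq_of_beq_eq_true hN
  change RV _ (x ||| x' <<< n) (y' ||| y <<< n')
  refine ⟨fun a b hab => ?_, fun a ha => ?_⟩
  · simp only [Nat.testBit_or, Nat.testBit_shiftLeft]
    rcases lt_or_ge a n with h1 | h1
    · rw [decide_eq_false (by omega), decide_eq_true (show b ≥ n' by omega), (h'.2 b (by omega)).2, h.1 a (b - n') (by omega)]
      simp
    · rw [decide_eq_true h1, decide_eq_false (show ¬ b ≥ n' by omega), (h.2 a h1).1, h'.1 (a - n) b (by omega)]
      simp
  · simp only [Nat.testBit_or, Nat.testBit_shiftLeft]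
    rw [(h.2 a (by omega)).1, (h'.2 (a - n) (by omega)).1, (h'.2 a (by omega)).2, (h.2 (a - n') (by omega)).2]
    simp

theorem split_lor (x n : ℕ) : Nat.lor (x % 1 <<< n) (Nat.shiftLeft (x >>> n) n) = x := by
  change x % 1 <<< n ||| (x >>> n) <<< n = x
  refine Nat.eq_of_testBit_eq fun b => ?_
  rw [Nat.testBit_or, Nat.one_shiftLeft, Nat.testBit_mod_two_pow, Nat.testBit_shiftLeft, Nat.testBit_shiftRight]
  rcases lt_or_ge b n with h | h
  · rw [decide_eq_true h, decide_eq_false (show ¬ b ≥ n by omega)]; simp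
  · rw [decide_eq_false (by omega), decide_eq_true h, Nat.add_sub_cancel' h]; simp

def rtree (n fuel d : ℕ) : ℕ → ℕ → Bool :=
  Nat.rec (motive := fun _ => ℕ → ℕ → Bool) (rleaf n fuel)
    (fun k ih x y => (fun h => and (ih (Nat.mod x (Nat.shiftLeft 1 h)) (Nat.shiftRight y h))
      (ih (Nat.shiftRight x h) (Nat.mod y (Nat.shiftLeft 1 h)))) (Nat.shiftLeft (Nat.succ n) k)) d

theorem rtree_spec {n fuel d x y : ℕ} (h : rtree n fuel d x y = true) : RV ((n + 1) <<< d) x y := by
  induction d generalizing x y with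
  | zero => exact rleaf_spec h
  | succ k ih =>
    have h' : (rtree n fuel k (x % 1 <<< ((n + 1) <<< k)) (y >>> ((n + 1) <<< k)) &&
      rtree n fuel k (x >>> ((n + 1) <<< k)) (y % 1 <<< ((n + 1) <<< k))) = true := h
    rw [Bool.and_eq_true] at h'
    have := RV.join ((n + 1) <<< (k + 1)) (ih h'.1) (ih h'.2) (by
      rw [Nat.shiftLeft_succ, two_mul]; exact Nat.beq_refl _)
    rwa [split_lor, split_lor] at this

theorem rv_of {n fuel d x y : ℕ} (N : ℕ) (h : (Nat.beq N (Nat.shiftLeft (Nat.succ n) d) && rtree n fuel d x y) = true) :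
    RV N x y := by
  rw [Bool.and_eq_true] at h
  exact Nat.eq_of_beq_eq_true h.1 ▸ rtree_spec h.2

/-! ### numbers in lanes -/

theorem lanes_lt {w : ℕ} {f : ℕ → ℕ} (n : ℕ) (h : ∀ j < n, f j < 2 ^ w) : ∑ j ∈ range n, f j * 2 ^ (w * j) < 2 ^ (w * n) := by
  induction n with
  | zero => simp
  | succ n ih =>
    have h1 := ih fun j hj => h j (by omega)
    have h2 := Nat.mul_le_mul_right (2 ^ (w * n)) (h n (by omega))
    rw [sum_range_succ, Nat.mul_succ, pow_add, mul_comm (2 ^ (w * n))]
    rw [Nat.succ_mul] at h2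
    omega

theorem testBit_lanes {w : ℕ} (hw : 0 < w) {f : ℕ → ℕ} (n : ℕ) (h : ∀ j < n, f j < 2 ^ w) (b : ℕ) :
    (∑ j ∈ range n, f j * 2 ^ (w * j)).testBit b = (decide (b / w < n) && (f (b / w)).testBit (b % w)) := by
  induction n with
  | zero => simp
  | succ n ih =>
    rw [sum_range_succ, add_comm, mul_comm (f n), Nat.testBit_two_pow_mul_add _ (lanes_lt n fun j hj => h j (by omega)),
      ih fun j hj => h j (by omega)]
    have h0 := Nat.div_add_mod b w
    have h1 := Nat.mod_lt b hw
    split_ifs with h2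
    · have := Nat.div_lt_of_lt_mul h2
      rw [decide_eq_true this, decide_eq_true (show b / w < n + 1 by omega)]
    · have h3 : n ≤ b / w := (Nat.le_div_iff_mul_le hw).2 (by rw [mul_comm]; omega)
      rcases h3.eq_or_lt with h3 | h3
      · rw [← h3] at h0 ⊢
        rw [decide_eq_true (Nat.lt_succ_self n), Bool.true_and, show b - w * n = b % w by omega]
      · have h4 := Nat.mul_le_mul_left w h3
        rw [Nat.mul_succ] at h4
        rw [decide_eq_false (by omega), Bool.false_and]
        exact Nat.testBit_lt_two_pow ((h n (by omega)).trans_le (Nat.pow_le_pow_right two_pos (by omega)))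

/-- masking picks the lowest bit of each lane -/
theorem land_mask {w : ℕ} (hw : 0 < w) (x n : ℕ) {p : ℕ → Bool} (h : ∀ j < n, x.testBit (w * j) = p j) :
    x &&& ∑ j ∈ range n, 2 ^ (w * j) = ∑ j ∈ range n, (if p j then 1 else 0) * 2 ^ (w * j) := by
  have h1 : 1 < 2 ^ w := Nat.one_lt_two_pow hw.ne'
  have h2 := testBit_lanes hw (f := fun _ => 1) n fun _ _ => h1
  simp only [one_mul] at h2
  refine Nat.eq_of_testBit_eq fun b => ?_
  rw [Nat.testBit_and, h2, testBit_lanes hw n fun j _ => by split_ifs <;> omega]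
  by_cases h3 : b / w < n
  · by_cases h4 : b % w = 0
    · have h5 := h _ h3
      rw [Nat.mul_div_cancel' (Nat.dvd_of_mod_eq_zero h4)] at h5
      rw [h4, h5]
      cases p (b / w) <;> simp
    · have h5 : Nat.testBit 1 (b % w) = false := by
        simpa using Nat.testBit_two_pow_of_ne (Ne.symm h4)
      cases p (b / w) <;> simp [h5]
  · simp [h3]

/-! ### replication -/

/-- `c` copies of `S` with stride `st` -/
def rp (S st fuel : ℕ) : ℕ → ℕ :=
  Nat.rec (motive := fun _ => ℕ → ℕ) (fun _ => S)
    (fun _ ih c => cond (Nat.ble c 1) S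
      ((fun h => (fun d => cond (Nat.beq (Nat.mod c 2) 0) d (Nat.lor S (Nat.shiftLeft d st)))
        (Nat.lor h (Nat.shiftLeft h (Nat.mul (Nat.div c 2) st)))) (ih (Nat.div c 2)))) fuel

/-- `R` consists of `c` copies of `S` -/
def Rp (S st c R : ℕ) : Prop := ∀ b, R.testBit b = true ↔ ∃ j < c, ∃ z, b = j * st + z ∧ S.testBit z = true

theorem rp_one (S st : ℕ) : Rp S st 1 S := fun b =>
  ⟨fun h => ⟨0, one_pos, b, by simp, h⟩, fun ⟨j, hj, z, h1, h2⟩ => by
    rw [h1, show j = 0 by omega, zero_mul, zero_add, h2]⟩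

theorem Rp.add {S st c c' R R' : ℕ} (h : Rp S st c R) (h' : Rp S st c' R') : Rp S st (c + c') (R ||| R' <<< (c * st)) := by
  intro b
  rw [Nat.testBit_or, Bool.or_eq_true, Nat.testBit_shiftLeft, Bool.and_eq_true, decide_eq_true_eq, h, h']
  constructor
  · rintro (⟨j, hj, hz⟩ | ⟨h1, j, hj, z, h2, h3⟩)
    · exact ⟨j, by omega, hz⟩
    · exact ⟨c + j, by omega, z, by rw [add_mul]; omega, h3⟩
  · rintro ⟨j, hj, z, h1, h2⟩
    rcases lt_or_ge j c with h3 | h3
    · exact Or.inl ⟨j, h3, z, h1, h2⟩
    · obtain ⟨j, rfl⟩ := Nat.exists_eq_add_of_le h3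
      rw [add_mul] at h1
      exact Or.inr ⟨by omega, j, by omega, z, by omega, h2⟩

theorem rp_spec (S st fuel c : ℕ) (h0 : 0 < c) (h1 : c < 2 ^ (fuel + 1)) : Rp S st c (rp S st fuel c) := by
  induction fuel generalizing c with
  | zero => exact (show c = 1 by omega) ▸ rp_one S st
  | succ f ih =>
    have e : rp S st (f + 1) c = cond (Nat.ble c 1) S (cond (Nat.beq (c % 2) 0)
      (rp S st f (c / 2) ||| rp S st f (c / 2) <<< (c / 2 * st))
      (S ||| (rp S st f (c / 2) ||| rp S st f (c / 2) <<< (c / 2 * st)) <<< st)) := rfl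
    rw [e]
    cases h2 : Nat.ble c 1 with
    | true => exact (show c = 1 by have := Nat.le_of_ble_eq_true h2; omega) ▸ rp_one S st
    | false =>
      have h3 : ¬ c ≤ 1 := fun h => by rw [Nat.ble_eq_true_of_le h] at h2; exact absurd h2 (by decide)
      have h4 := ih (c / 2) (by omega) (by rw [pow_succ] at h1; omega)
      have h5 := h4.add h4
      cases h6 : Nat.beq (c % 2) 0 with
      | true =>
        have := Nat.eq_of_beq_eq_true h6
        rwa [show c / 2 + c / 2 = c by omega] at h5
      | false =>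
        have := Nat.ne_of_beq_eq_false h6
        have h7 := (rp_one S st).add h5
        rwa [show 1 + (c / 2 + c / 2) = c by omega, one_mul] at h7

theorem Rp.bit {S st c R q y : ℕ} (h : Rp S st c R) (h0 : S.testBit 0 = false) (h1 : ∀ z, st ≤ z → S.testBit z = false)
    (hq : q < c) (hy : y ≤ st) : R.testBit (q * st + y) = S.testBit y := by
  rw [Bool.eq_iff_iff, h]
  refine ⟨fun ⟨j, _, z, h2, h3⟩ => ?_, fun h2 => ⟨q, hq, y, rfl, h2⟩⟩
  have h4 : z < st := not_le.1 fun h4 => by rw [h1 z h4] at h3; exact absurd h3 (by decide)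
  have h5 : z ≠ 0 := by rintro rfl; rw [h0] at h3; exact absurd h3 (by decide)
  rcases lt_trichotomy j q with h6 | rfl | h6
  · have := Nat.mul_le_mul_right st h6
    rw [Nat.succ_mul] at this
    omega
  · rwa [show y = z by omega]
  · have := Nat.mul_le_mul_right st h6
    rw [Nat.succ_mul] at this
    omega

/-- the index `i` is marked in `S` -/
def sb (S i : ℕ) : Bool := decide (i < 27525120) && S.testBit (56 * (i % 491520) + i / 491520)

/-- the marks of `lo ≤ i < lo + len` in lanes of 56 bits -/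
def lanesF (mask S lo len : ℕ) : ℕ :=
  (fun a off => (fun R => Nat.land (Nat.lor (Nat.shiftRight R off) (Nat.shiftLeft R (Nat.sub (Nat.mul a 27525119) off))) mask)
      (rp S 27525119 5 a))
    (Nat.div (Nat.add (Nat.add (Nat.mod lo 491520) len) 983039) 983040)
    (Nat.add (Nat.div lo 491520) (Nat.mul 56 (Nat.mod lo 491520)))

/-- the same in the opposite order, from the reversed set -/
def lanesR (mask S' lo len : ℕ) : ℕ := lanesF mask S' (Nat.sub 27525120 (Nat.add lo len)) len

theorem lanesF_spec {S lo len : ℕ} (h0 : S.testBit 0 = false) (h1 : ∀ z, 27525119 ≤ z → S.testBit z = false)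
    (h : lo + len ≤ 27525120) :
    lanesF (∑ j ∈ range len, 2 ^ (56 * j)) S lo len = ∑ j ∈ range len, (if sb S (lo + j) then 1 else 0) * 2 ^ (56 * j) := by
  refine land_mask (by decide) _ len fun j hj => ?_
  have hR := rp_spec S 27525119 5 ((lo % 491520 + len + 983039) / 983040) (by omega) (by omega)
  have hb := (hR.add hR).bit h0 h1 (q := (lo % 491520 + j) / 491520) (y := 56 * ((lo + j) % 491520) + (lo + j) / 491520)
    (by omega) (by omega)
  change (rp S 27525119 5 ((lo % 491520 + len + 983039) / 983040) >>> (lo / 491520 + 56 * (lo % 491520)) |||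
    rp S 27525119 5 ((lo % 491520 + len + 983039) / 983040) <<<
      ((lo % 491520 + len + 983039) / 983040 * 27525119 - (lo / 491520 + 56 * (lo % 491520)))).testBit (56 * j) = _
  have ha : 1 ≤ (lo % 491520 + len + 983039) / 983040 := by omega
  generalize (lo % 491520 + len + 983039) / 983040 = a at hb ha ⊢
  generalize rp S 27525119 5 a = R at hb ⊢
  rw [sb, decide_eq_true (by omega), Bool.true_and, ← hb,
    show (lo % 491520 + j) / 491520 * 27525119 + (56 * ((lo + j) % 491520) + (lo + j) / 491520) =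
      lo / 491520 + 56 * (lo % 491520) + 56 * j by omega]
  have ho : lo / 491520 + 56 * (lo % 491520) ≤ a * 27525119 := by omega
  generalize lo / 491520 + 56 * (lo % 491520) = off at ho ⊢
  simp only [Nat.testBit_or, Nat.testBit_shiftLeft, Nat.testBit_shiftRight]
  rw [show decide (56 * j ≥ a * 27525119 - off) = decide (off + 56 * j ≥ a * 27525119) from decide_eq_decide.2 (by omega)]
  by_cases h2 : off + 56 * j ≥ a * 27525119
  · rw [show 56 * j - (a * 27525119 - off) = off + 56 * j - a * 27525119 by omega]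
  · rw [decide_eq_false h2, Bool.false_and, Bool.false_and]

/-- certified data of the class `c` -/
structure SD (c S S' : ℕ) : Prop where
  safe' : SB 56 (60 * 491520) S c
  rev : RV 27525120 S S'
  bot : S.testBit 0 = false
  top : S.testBit 27525119 = false

theorem sd_of {c S S' : ℕ} (h1 : SB 56 (60 * 491520) S c) (h2 : RV 27525120 S S')
    (h3 : (Nat.beq (Nat.land S 1) 0 && Nat.beq (Nat.shiftRight S 27525119) 0) = true) : SD c S S' := by
  rw [Bool.and_eq_true] at h3
  have h4 := congrArg (fun y => y.testBit 0) (show S &&& 1 = 0 from Nat.eq_of_beq_eq_true h3.1)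
  have h5 := congrArg (fun y => y.testBit 0) (show S >>> 27525119 = 0 from Nat.eq_of_beq_eq_true h3.2)
  simp only [Nat.testBit_and, Nat.testBit_shiftRight, Nat.zero_testBit] at h4 h5
  exact ⟨h1, h2, by simpa using h4, h5⟩

variable {c S S' : ℕ}

theorem SD.safe (h : SD c S S') {i : ℕ} (hi : sb S i = true) : Safe (60 * i + c) := by
  rw [sb, Bool.and_eq_true, decide_eq_true_eq] at hi
  have h1 := h.safe' _ hi.2
  have h2 := hi.1
  rwa [show lab 56 (60 * 491520) c (56 * (i % 491520) + i / 491520) = 60 * i + c by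
    change (56 * (i % 491520) + i / 491520) % 56 * (60 * 491520) + (56 * (i % 491520) + i / 491520) / 56 * 60 + c = _
    omega] at h1

theorem SD.lanesF_eq (h : SD c S S') {mask lo len : ℕ} (hm : mask = ∑ j ∈ range len, 2 ^ (56 * j))
    (hl : lo + len ≤ 27525120) :
    lanesF mask S lo len = ∑ j ∈ range len, (if sb S (lo + j) then 1 else 0) * 2 ^ (56 * j) :=
  hm ▸ lanesF_spec h.bot (fun z hz => hz.eq_or_lt.elim (fun e => e ▸ h.top) fun e => (h.rev.2 z e).1) hl

theorem SD.lanesR_eq (h : SD c S S') {mask lo len : ℕ} (hm : mask = ∑ j ∈ range len, 2 ^ (56 * j))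
    (hl : lo + len ≤ 27525120) :
    lanesR mask S' lo len = ∑ j ∈ range len, (if sb S (lo + (len - 1 - j)) then 1 else 0) * 2 ^ (56 * j) := by
  change lanesF mask S' (27525120 - (lo + len)) len = _
  rw [hm, lanesF_spec ((h.rev.1 27525119 0 rfl).symm.trans h.top)
    (fun z hz => hz.eq_or_lt.elim (fun e => e ▸ (h.rev.1 0 27525119 rfl).symm.trans h.bot) fun e => (h.rev.2 z e).2) (by omega)]
  refine sum_congr rfl fun j hj => ?_
  have hj := mem_range.1 hj
  rw [sb, sb, decide_eq_true (by omega), decide_eq_true (by omega),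
    h.rev.1 (56 * ((lo + (len - 1 - j)) % 491520) + (lo + (len - 1 - j)) / 491520)
      (56 * ((27525120 - (lo + len) + j) % 491520) + (27525120 - (lo + len) + j) / 491520) (by omega)]

end Cfsg.Agent.Depth.L
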