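import Cfsg.Agent.Depth.L.MDefs
import Cfsg.Agent.Depth.L.Lane

/-!
# Depth L: numbers in lanes of 56 bits, decoding and masks (helper59)
-/

set_option autoImplicit false

namespace Cfsg.Agent.Depth.L

open Finset Polynomial

theorem enc_congr {n : ℕ} {f g : ℕ → ℤ} (h : ∀ j < n, f j = g j) : enc n f = enc n g :=
  sum_congr rfl fun j hj => by rw [h j (mem_range.1 hj)]

theorem enc_split (n m : ℕ) (f : ℕ → ℤ) : enc (n + m) f = enc n f + 2 ^ (56 * n) * enc m fun j => f (n + j) := by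
  unfold enc
  rw [sum_range_add, mul_sum]
  exact congrArg _ (sum_congr rfl fun j _ => by rw [mul_add, pow_add]; ring)

theorem enc_one (f : ℕ → ℤ) : enc 1 f = f 0 := by simp [enc]

theorem enc_add (n : ℕ) (f g : ℕ → ℤ) : enc n (fun j => f j + g j) = enc n f + enc n g := by
  simp only [enc, add_mul, sum_add_distrib]

theorem enc_sub (n : ℕ) (f g : ℕ → ℤ) : enc n (fun j => f j - g j) = enc n f - enc n g := by
  simp only [enc, sub_mul, sum_sub_distrib]

theorem enc_mul (n : ℕ) (c : ℤ) (f : ℕ → ℤ) : enc n (fun j => c * f j) = c * enc n f := by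
  simp only [enc, mul_sum, mul_assoc]

theorem enc_cast (n : ℕ) (f : ℕ → ℕ) : ((∑ j ∈ range n, f j * 2 ^ (56 * j) : ℕ) : ℤ) = enc n fun j => f j := by
  simp [enc]

theorem ones_eq (n : ℕ) : ones n = ∑ j ∈ range n, 2 ^ (56 * j) := by
  have h := Nat.geomSum_eq (m := 2 ^ 56) (by norm_num) n
  simp only [← pow_mul] at h
  rw [h]
  change (1 <<< (56 * n) - 1) / 72057594037927935 = _
  rw [Nat.one_shiftLeft]
  norm_num

theorem ones_mul (n c : ℕ) : ones n * c = ∑ j ∈ range n, c * 2 ^ (56 * j) := by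
  rw [ones_eq, sum_mul]
  exact sum_congr rfl fun _ _ => mul_comm _ _

theorem ones_cast (n c : ℕ) : ((ones n * c : ℕ) : ℤ) = enc n fun _ => c := by rw [ones_mul, enc_cast n fun _ => c]

theorem ones_shift (n : ℕ) : ones (n + 1) >>> 56 = ones n := by
  rw [ones_eq, ones_eq, sum_range_succ', Nat.shiftRight_eq_div_pow]
  simp only [mul_add, pow_add, ← sum_mul, mul_one, mul_zero, pow_zero]
  omega

theorem dig_eq (V i : ℕ) : dig V i = V / 2 ^ (56 * i) % 2 ^ 56 := by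
  change (V >>> (56 * i)) &&& (2 ^ 56 - 1) = _
  rw [Nat.and_two_pow_sub_one_eq_mod, Nat.shiftRight_eq_div_pow]

theorem dig_lt (V i : ℕ) : dig V i < 2 ^ 56 := by
  rw [dig_eq]
  exact Nat.mod_lt _ (by norm_num)

theorem eq_dig (V n : ℕ) : (V : ℤ) = enc n (fun j => dig V j) + 2 ^ (56 * n) * (V >>> (56 * n) : ℕ) := by
  induction n with
  | zero => simp [enc]
  | succ n ih =>
    have h := Nat.div_add_mod (V / 2 ^ (56 * n)) (2 ^ 56)
    rw [Nat.div_div_eq_div_mul, ← pow_add, ← dig_eq, ← Nat.shiftRight_eq_div_pow, ← Nat.shiftRight_eq_div_pow] at h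
    rw [enc_split, enc_one, add_zero, mul_add 56, pow_add, mul_one, add_assoc, mul_assoc, ← mul_add]
    rw [← h] at ih
    rw [ih]
    push_cast
    ring

theorem enc_zero {n : ℕ} {e : ℕ → ℤ} {R : ℤ} (h : enc n e + 2 ^ (56 * n) * R = 0) (he : ∀ j < n, |e j| < 2 ^ 56) :
    (∀ j < n, e j = 0) ∧ R = 0 := by
  induction n generalizing R with
  | zero => simpa [enc] using h
  | succ n ih =>
    rw [enc_split, enc_one, add_zero, mul_add 56, pow_add, mul_one, add_assoc, mul_assoc, ← mul_add] at h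
    obtain ⟨h1, h2⟩ := ih h fun j hj => he j (by omega)
    have h3 := abs_lt.1 (he n (by omega))
    refine ⟨fun j hj => ?_, by omega⟩
    rcases Nat.lt_succ_iff_lt_or_eq.1 hj with h4 | rfl
    · exact h1 j h4
    · omega

theorem decode {V n : ℕ} {d : ℕ → ℤ} {R : ℤ} (h : (V : ℤ) = enc n d + 2 ^ (56 * n) * R)
    (hd : ∀ j < n, |d j - dig V j| < 2 ^ 56) : (∀ j < n, d j = dig V j) ∧ R = (V >>> (56 * n) : ℕ) := by
  have h1 := enc_zero (n := n) (e := fun j => d j - dig V j) (R := R - (V >>> (56 * n) : ℕ))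
    (by rw [enc_sub]; linear_combination eq_dig V n - h) hd
  exact ⟨fun j hj => sub_eq_zero.1 (h1.1 j hj), sub_eq_zero.1 h1.2⟩

theorem decode' {V n : ℕ} {d : ℕ → ℤ} {R : ℤ} (h : (V : ℤ) = enc n d + 2 ^ (56 * n) * R)
    (hd : ∀ j < n, 0 ≤ d j ∧ d j < 2 ^ 56) : (∀ j < n, d j = dig V j) ∧ R = (V >>> (56 * n) : ℕ) :=
  decode h fun j hj => by
    have h1 := hd j hj
    have h2 := dig_lt V j
    rw [abs_lt]
    omega

theorem land_lanes (V n : ℕ) {y : ℕ → ℕ} (hy : ∀ j < n, y j < 2 ^ 56) :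
    V &&& ∑ j ∈ range n, y j * 2 ^ (56 * j) = ∑ j ∈ range n, (dig V j &&& y j) * 2 ^ (56 * j) := by
  refine Nat.eq_of_testBit_eq fun b => ?_
  rw [Nat.testBit_and, testBit_lanes (by decide) n hy,
    testBit_lanes (by decide) n fun j hj => Nat.and_le_right.trans_lt (hy j hj), Nat.testBit_and, dig_eq,
    Nat.testBit_mod_two_pow, Nat.testBit_div_two_pow, decide_eq_true (Nat.mod_lt b (by decide)), Nat.mod_add_div,
    Bool.true_and, Bool.and_left_comm]

theorem and_mask (x a s : ℕ) : x &&& ((2 ^ a - 1) * 2 ^ s) = x / 2 ^ s % 2 ^ a * 2 ^ s := by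
  refine Nat.eq_of_testBit_eq fun b => ?_
  rw [Nat.testBit_and, Nat.testBit_mul_two_pow, Nat.testBit_mul_two_pow, Nat.testBit_two_pow_sub_one,
    Nat.testBit_mod_two_pow, Nat.testBit_div_two_pow]
  by_cases h : s ≤ b
  · rw [Nat.sub_add_cancel h, decide_eq_true h, Bool.true_and, Bool.true_and, Bool.and_comm]
  · simp [h]

theorem mask_lt {a s : ℕ} (h : s + a ≤ 56) : (2 ^ a - 1) * 2 ^ s < 2 ^ 56 := by
  refine lt_of_lt_of_le ?_ (Nat.pow_le_pow_right two_pos h)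
  rw [add_comm, pow_add]
  exact Nat.mul_lt_mul_of_pos_right (Nat.sub_one_lt (by positivity)) (by positivity)

/-- a block of lanes: range check, rounding, and the rest -/
theorem chunkG {n S : ℕ} (s a b : ℕ) {lm hm : ℕ} {z : ℕ → ℤ} {R : ℤ} (hab : s + a + b = 56)
    (hl : lm = (2 ^ a - 1) * 2 ^ s) (hh : hm = (2 ^ b - 1) * 2 ^ (s + a)) (hS : (S : ℤ) = enc n z + 2 ^ (56 * n) * R)
    (hz : ∀ j < n, 2 ^ (s + a) - 2 ^ 56 ≤ z j ∧ z j < 2 ^ 56) (h : S &&& (ones n * hm) = 0) :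
    (∀ j < n, 0 ≤ z j ∧ z j < 2 ^ (s + a)) ∧ ((S &&& (ones n * lm) : ℕ) : ℤ) = 2 ^ s * enc n (fun j => z j / 2 ^ s) ∧
      ((S >>> (56 * n) : ℕ) : ℤ) = R := by
  have h1 : ∀ j < n, dig S j < 2 ^ (s + a) := by
    intro j hj
    rw [ones_mul, land_lanes S n fun _ _ => hh ▸ mask_lt hab.le, sum_eq_zero_iff] at h
    have h2 := h j (mem_range.2 hj)
    rw [hh, and_mask, mul_eq_zero, mul_eq_zero, or_iff_left (by positivity), or_iff_left (by positivity),
      Nat.mod_eq_of_lt (Nat.div_lt_of_lt_mul (by rw [← pow_add, hab]; exact dig_lt S j))] at h2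
    exact (Nat.div_eq_zero_iff_lt (by positivity)).1 h2
  obtain ⟨h2, h3⟩ := decode hS fun j hj => by
    have h4 : (dig S j : ℤ) < 2 ^ (s + a) := by exact_mod_cast h1 j hj
    have h5 := hz j hj
    rw [abs_lt]
    omega
  refine ⟨fun j hj => ?_, ?_, h3.symm⟩
  · rw [h2 j hj]
    exact ⟨by positivity, by exact_mod_cast h1 j hj⟩
  · rw [ones_mul, land_lanes S n fun _ _ => hl ▸ mask_lt (by omega), enc_cast, ← enc_mul]
    refine enc_congr fun j hj => ?_
    rw [hl, and_mask, Nat.mod_eq_of_lt (Nat.div_lt_of_lt_mul (by rw [← pow_add]; exact h1 j hj)), h2 j hj]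
    push_cast
    ring

/-- rounding to a multiple of `2^25` -/
def tr (x : ℤ) : ℤ := (x + 16777216) / 33554432

theorem tr_spec (x : ℤ) : |x - 2 ^ 25 * tr x| ≤ 2 ^ 24 := by
  unfold tr
  rw [abs_le]
  omega

theorem oK_cast (N : ℕ) : (oK (ones N) : ℤ) = enc N fun _ => 1099528404992 := ones_cast N _

theorem chunk {N S : ℕ} {d : ℕ → ℤ} {R : ℤ} (hS : (S : ℤ) = enc N d + oK (ones N) + 2 ^ (56 * N) * R)
    (hd : ∀ j < N, |d j| ≤ 2 ^ 56 - 2 ^ 42) (h : tOK (ones N) S = true) :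
    (∀ j < N, -32768 ≤ tr (d j) ∧ tr (d j) < 32768) ∧
      (tS (ones N) S : ℤ) = 2 ^ 25 * enc N (fun j => tr (d j) + 32768) ∧ ((S >>> (56 * N) : ℕ) : ℤ) = R := by
  rw [oK_cast, ← enc_add] at hS
  obtain ⟨h1, h2, h3⟩ := chunkG 25 16 15 (lm := 2198989701120) (hm := 72055395014672384) rfl (by norm_num) (by norm_num)
    hS (fun j hj => by have := abs_le.1 (hd j hj); omega) (Nat.eq_of_beq_eq_true h)
  refine ⟨fun j hj => ?_, h2.trans (congrArg _ (enc_congr fun j _ => ?_)), h3⟩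
  · have := h1 j hj
    unfold tr
    omega
  · unfold tr
    omega

theorem eval_enc {P : ℤ[X]} {n : ℕ} (h : P.natDegree < n) : P.eval (2 ^ 56) = enc n P.coeff := by
  rw [eval_eq_sum_range' h, enc]
  simp only [← pow_mul]

theorem eval_pol (n : ℕ) (f : ℕ → ℤ) : (pol n f).eval (2 ^ 56) = enc n f := by
  simp only [pol, eval_finsetSum, eval_monomial, enc, ← pow_mul]

theorem sum_le_of_vanish {f : ℕ → ℤ} {n : ℕ} (h0 : ∀ i, 0 ≤ f i) (h : ∀ i, n ≤ i → f i = 0) (k : ℕ) :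
    ∑ i ∈ range k, f i ≤ ∑ i ∈ range n, f i := by
  rcases le_total k n with h1 | h1
  · exact sum_le_sum_of_subset_of_nonneg (range_mono h1) fun i _ _ => h0 i
  · exact (sum_subset (range_mono h1) fun i _ hi => h i (by simpa using hi)).ge

theorem coeff_mul_le {P Q : ℤ[X]} {n : ℕ} {a : ℤ} (hP : P.natDegree < n) (hQ : Q.natDegree < n)
    (h1 : ∑ i ∈ range n, P.coeff i ^ 2 ≤ a) (h2 : ∑ i ∈ range n, Q.coeff i ^ 2 ≤ a) (k : ℕ) : |(P * Q).coeff k| ≤ a := by
  have v : ∀ {P : ℤ[X]}, P.natDegree < n → ∑ x ∈ antidiagonal k, P.coeff x.1 ^ 2 ≤ ∑ i ∈ range n, P.coeff i ^ 2 := by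
    intro P hP
    rw [Finset.Nat.sum_antidiagonal_eq_sum_range_succ (fun i _ => P.coeff i ^ 2)]
    exact sum_le_of_vanish (fun _ => sq_nonneg _) (fun i hi => by rw [coeff_eq_zero_of_natDegree_lt (by omega)]; rfl) _
  have h3 := v hP
  have h4 := v hQ
  rw [← Finset.Nat.sum_antidiagonal_swap] at h4
  have h5 : 2 * |(P * Q).coeff k| ≤ ∑ x ∈ antidiagonal k, (P.coeff x.1 ^ 2 + Q.coeff x.swap.1 ^ 2) := by
    rw [coeff_mul]
    refine (mul_le_mul_of_nonneg_left (abs_sum_le_sum_abs _ _) two_pos.le).trans ?_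
    rw [mul_sum]
    refine sum_le_sum fun x _ => ?_
    rw [abs_mul, ← sq_abs (P.coeff _), ← sq_abs (Q.coeff _), Prod.fst_swap]
    nlinarith [sq_nonneg (|P.coeff x.1| - |Q.coeff x.2|)]
  rw [sum_add_distrib] at h5
  omega

theorem natDegree_pol_lt {n : ℕ} (hn : 0 < n) (f : ℕ → ℤ) : (pol n f).natDegree < n := by
  obtain ⟨n, rfl⟩ := Nat.exists_eq_add_one.2 hn
  exact Nat.lt_succ_of_le (natDegree_pol n f)

theorem digS_eq (V i s : ℕ) : digS V i s = dig (V >>> s) i := by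
  change (V >>> (56 * i + s)) &&& _ = ((V >>> s) >>> (56 * i)) &&& _
  rw [add_comm, Nat.shiftRight_add]

theorem shift_cast {V s : ℕ} {z : ℤ} (h : (V : ℤ) = 2 ^ s * z) : ((V >>> s : ℕ) : ℤ) = z := by
  rw [Nat.shiftRight_eq_div_pow]
  push_cast
  rw [h, Int.mul_ediv_cancel_left _ (by positivity)]

/-- the middle lane of a product -/
theorem mid {n T T' : ℕ} (s : ℕ) {f g : ℕ → ℤ} (hn : n < 2 ^ 24) (hT : (T : ℤ) = 2 ^ s * enc (n + 1) f)
    (hT' : (T' : ℤ) = 2 ^ s * enc (n + 1) g) (hf : ∀ j < n + 1, 0 ≤ f j ∧ f j < 65536)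
    (hg : ∀ j < n + 1, 0 ≤ g j ∧ g j < 65536) :
    (digS (Nat.mul T T') n (s + s) : ℤ) = ∑ j ∈ range (n + 1), f j * g (n - j) := by
  have d : ∀ f, (pol (n + 1) f).natDegree < n + 1 := natDegree_pol_lt n.succ_pos
  have b : ∀ {f : ℕ → ℤ}, (∀ j < n + 1, 0 ≤ f j ∧ f j < 65536) →
      ∑ i ∈ range (n + 1), (pol (n + 1) f).coeff i ^ 2 ≤ 2 ^ 24 * 65535 ^ 2 := by
    intro f hf
    refine (sum_le_card_nsmul _ _ (65535 ^ 2) fun i hi => ?_).trans ?_
    · have := hf i (mem_range.1 hi)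
      rw [coeff_pol, if_pos (mem_range.1 hi)]
      exact pow_le_pow_left₀ this.1 (by omega) 2
    · rw [card_range, nsmul_eq_mul]
      push_cast
      omega
  have p : ∀ {f : ℕ → ℤ}, (∀ j < n + 1, 0 ≤ f j ∧ f j < 65536) → ∀ i, 0 ≤ (pol (n + 1) f).coeff i := by
    intro f hf i
    rw [coeff_pol]
    split_ifs with h
    exacts [(hf i h).1, le_rfl]
  have e : ((Nat.mul T T' >>> (s + s) : ℕ) : ℤ) = enc (n + n + 1) (pol (n + 1) f * pol (n + 1) g).coeff + 2 ^ (56 * (n + n + 1)) * 0 := by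
    refine shift_cast ?_
    rw [← eval_enc (Nat.lt_succ_of_le (natDegree_mul_le_of_le (natDegree_pol n f) (natDegree_pol n g))), eval_mul,
      eval_pol, eval_pol, Nat.mul_eq, Nat.cast_mul, hT, hT', pow_add]
    ring
  have h := (decode' e fun j _ => ⟨by rw [coeff_mul]; exact sum_nonneg fun x _ => mul_nonneg (p hf _) (p hg _),
    (le_abs_self _).trans_lt ((coeff_mul_le (d f) (d g) (b hf) (b hg) j).trans_lt (by norm_num))⟩).1 n (by omega)
  rw [digS_eq, ← h, coeff_mul,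
    Finset.Nat.sum_antidiagonal_eq_sum_range_succ fun i j => (pol (n + 1) f).coeff i * (pol (n + 1) g).coeff j]
  refine sum_congr rfl fun j hj => ?_
  rw [coeff_pol, coeff_pol, if_pos (mem_range.1 hj), if_pos (by omega)]

/-- the sum of the lanes -/
theorem lsum_eq {n T : ℕ} {f : ℕ → ℤ} (hn : n ≤ 2 ^ 24) (hT : (T : ℤ) = 2 ^ 25 * enc n f)
    (hf : ∀ j < n, 0 ≤ f j ∧ f j < 65536) : (lsum T : ℤ) = ∑ j ∈ range n, f j := by
  have h1 : enc n f ≡ ∑ j ∈ range n, f j [ZMOD 72057594037927935] := by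
    refine Int.ModEq.sum fun j _ => ?_
    have h2 : (2 : ℤ) ^ 56 ≡ 1 [ZMOD 72057594037927935] := by decide
    simpa [pow_mul] using (h2.pow j).mul_left (f j)
  have h2 : 0 ≤ ∑ j ∈ range n, f j := sum_nonneg fun j hj => (hf j (mem_range.1 hj)).1
  have h3 : ∑ j ∈ range n, f j ≤ n * 65536 := by
    simpa using sum_le_card_nsmul (range n) f 65536 fun j hj => (hf j (mem_range.1 hj)).2.le
  change ((T % 72057594037927935 * 2147483648 % 72057594037927935 : ℕ) : ℤ) = _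
  push_cast
  rw [hT]
  unfold Int.ModEq at h1
  omega

end Cfsg.Agent.Depth.L
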