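import Cfsg.Agent.Depth.L.Tw

/-!
# Depth L: interface between the kernel machine, the analysis and the assembly (helper59)
-/

set_option autoImplicit false

namespace Cfsg.Agent.Depth.L

open Finset Polynomial

/-- the polynomial with coefficients `f 0, …, f (n - 1)` -/
noncomputable def pol (n : ℕ) (f : ℕ → ℤ) : ℤ[X] := ∑ j ∈ range n, monomial j (f j)

theorem coeff_pol (n : ℕ) (f : ℕ → ℤ) (j : ℕ) : (pol n f).coeff j = if j < n then f j else 0 := by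
  simp [pol, coeff_monomial]

theorem natDegree_pol (n : ℕ) (f : ℕ → ℤ) : (pol (n + 1) f).natDegree ≤ n :=
  natDegree_le_iff_coeff_eq_zero.2 fun j hj => by rw [coeff_pol, if_neg (by omega)]

/-- what one kernel run gives for the piece `[lo, lo + n)`; the unit of `Λ` and `g` is `2^37 / K` -/
def PF (c1 lo n K : ℕ) (t : ℕ → ℕ) (e b2 b8 : ℝ) : Prop :=
  ∃ (Λ : ℕ → ℕ) (g : ℕ → ℤ) (c : ℕ → ℝ), (∀ j, j < n → Λ j ≠ 0 → Safe (60 * (lo + j) + c1)) ∧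
    ∑ j ∈ range n, (Λ j : ℝ) ^ 2 ≤ b2 ∧
    ∑ j ∈ range n, |(Λ j : ℝ) - t j * (rhoQ (60 * (lo + j) + c1) : ℝ) * K / 2 ^ 37 - g j| ≤ e ∧
    ∑ m ∈ range (4 * n), c m ^ 2 ≤ b8 ∧
    ∀ x : ℝ, ‖∑ j ∈ range n, (g j : ℂ) * ex (x * j)‖ ^ 4 = ‖SS (4 * n) c x‖

/-- analysis box: eighth moment of `g` from a rounded autocorrelation -/
def BoxAna : Prop :=
  ∀ (N : ℕ) (g : ℕ → ℤ) (H' : ℤ[X]) (m : ℝ), 0 < m → H'.natDegree ≤ 2 * N →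
    (∀ j, |(pol (N + 1) g * reflect N (pol (N + 1) g)).coeff j - 2 ^ 25 * H'.coeff j| ≤ 2 ^ 24) →
    ∃ c : ℕ → ℝ, (∀ x : ℝ, ‖∑ j ∈ range (N + 1), (g j : ℂ) * ex (x * j)‖ ^ 4 = ‖SS (4 * (N + 1)) c x‖) ∧
      ∑ i ∈ range (4 * (N + 1)), c i ^ 2 ≤
        (1 + 1 / m) ^ 3 * 2 ^ 100 * ∑ i ∈ range (4 * N + 1), (((H' * H').coeff i : ℤ) : ℝ) ^ 2 +
          (1 + m) ^ 3 * (2 * N + 1) ^ 3 * 2 ^ 96

/-- assembly box: three pieces give the facts of one window -/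
def BoxWin : Prop :=
  ∀ (c1 s K : ℕ) (e b2 b8 w : Fin 3 → ℝ) (e0 n8 n2 : ℝ), 0 < K → (∀ k, 0 < w k) → ∑ k, w k = 1 →
    (∀ k : Fin 3, PF c1 (Iw s + k * nw s) (nw s) K (fun j => tw s (Iw s + k * nw s + j)) (e k) (b2 k) (b8 k)) →
    (∑ k, e k) * (2 ^ 37 / K) ≤ e0 * Tw s →
    (∑ k, b2 k) * (2 ^ 37 / K) ^ 2 ≤ n2 * Tw s ^ 2 →
    (∑ k, b8 k / w k ^ 7) * (2 ^ 37 / K) ^ 8 ≤ n8 * Tw s ^ 8 →
    ∃ lam : ℕ → ℝ, LFacts c1 s e0 n8 n2 lam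

end Cfsg.Agent.Depth.L
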