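import Cfsg.Agent.Depth.L.Enc

/-!
# Depth L: soundness of the three product levels (helper59)
-/

set_option autoImplicit false

namespace Cfsg.Agent.Depth.L

open Finset Polynomial

theorem lev3_sound {n bt T0 T1 T2 T3 : ℕ} {τ0 τ1 τ2 τ3 : ℕ → ℤ} (hn : n < 2 ^ 24)
    (e0 : (T0 : ℤ) = 2 ^ 25 * enc (n + 1) fun j => τ0 j + 32768) (e1 : (T1 : ℤ) = 2 ^ 25 * enc (n + 1) fun j => τ1 j + 32768)
    (e2 : (T2 : ℤ) = 2 ^ 25 * enc (n + 1) fun j => τ2 j + 32768) (e3 : (T3 : ℤ) = 2 ^ 25 * enc (n + 1) fun j => τ3 j + 32768)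
    (b0 : ∀ j < n + 1, -32768 ≤ τ0 j ∧ τ0 j < 32768) (b1 : ∀ j < n + 1, -32768 ≤ τ1 j ∧ τ1 j < 32768)
    (b2 : ∀ j < n + 1, -32768 ≤ τ2 j ∧ τ2 j < 32768) (b3 : ∀ j < n + 1, -32768 ≤ τ3 j ∧ τ3 j < 32768)
    (s3 : ∀ j < n + 1, τ3 (n - j) = τ0 j) (s2 : ∀ j < n + 1, τ2 (n - j) = τ1 j)
    (h : lev3 (n + 1) bt T0 T1 T2 T3 = true) :
    ∑ j ∈ range (n + 1), τ0 j ^ 2 + ∑ j ∈ range (n + 1), τ1 j ^ 2 ≤ bt := by
  have c : ∀ {τ : ℕ → ℤ}, (∀ j < n + 1, -32768 ≤ τ j ∧ τ j < 32768) → ∀ j < n + 1, 0 ≤ τ j + 32768 ∧ τ j + 32768 < 65536 :=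
    fun hτ j hj => by have := hτ j hj; omega
  have q : ∀ {τ τ' : ℕ → ℤ}, (∀ j < n + 1, τ' (n - j) = τ j) → ∑ j ∈ range (n + 1), (τ j + 32768) * (τ' (n - j) + 32768) =
      ∑ j ∈ range (n + 1), τ j ^ 2 + 65536 * ∑ j ∈ range (n + 1), (τ j + 32768) - (n + 1) * 1073741824 := by
    intro τ τ' hτ
    rw [mul_sum, ← sum_add_distrib, eq_sub_iff_add_eq, show ((n : ℤ) + 1) * 1073741824 = ∑ _j ∈ range (n + 1), 1073741824 by simp,
      ← sum_add_distrib]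
    exact sum_congr rfl fun j hj => by rw [hτ j (mem_range.1 hj)]; ring
  have m0 := (mid 25 hn e0 e3 (c b0) (c b3)).trans (q s3)
  have m1 := (mid 25 hn e1 e2 (c b1) (c b2)).trans (q s2)
  have l0 := lsum_eq (n := n + 1) hn e0 (c b0)
  have l1 := lsum_eq (n := n + 1) hn e1 (c b1)
  have h' : digS (Nat.mul T0 T3) n (25 + 25) + digS (Nat.mul T1 T2) n (25 + 25) + (n + 1) * 2147483648 ≤
      bt + 65536 * (lsum T0 + lsum T1) := Nat.le_of_ble_eq_true h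
  omega

theorem sq_split {x t m : ℝ} (hm : 0 < m) (h : |x - 2 ^ 25 * t| ≤ 2 ^ 24) :
    x ^ 2 ≤ (1 + 1 / m) * 2 ^ 50 * t ^ 2 + (1 + m) * 2 ^ 48 := by
  obtain ⟨e, rfl⟩ : ∃ e, x = 2 ^ 25 * t + e := ⟨x - 2 ^ 25 * t, by ring⟩
  rw [add_sub_cancel_left] at h
  have h1 : e ^ 2 ≤ 2 ^ 48 := by
    rw [← sq_abs]
    exact (pow_le_pow_left₀ (abs_nonneg _) h 2).trans_eq (by norm_num)
  have h2 : 0 ≤ (2 ^ 25 * t - m * e) ^ 2 / m := by positivity
  have h3 : (2 ^ 25 * t - m * e) ^ 2 / m = 1 / m * 2 ^ 50 * t ^ 2 - 2 * (2 ^ 25 * t) * e + m * e ^ 2 := by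
    field_simp
    ring
  nlinarith [mul_le_mul_of_nonneg_left h1 (show 0 ≤ 1 + m by positivity)]

theorem sum_sq_tr {N : ℕ} {m : ℝ} (hm : 0 < m) (d : ℕ → ℤ) : ∑ j ∈ range N, (d j : ℝ) ^ 2 ≤
    (1 + 1 / m) * 2 ^ 50 * ((∑ j ∈ range N, tr (d j) ^ 2 : ℤ) : ℝ) + N * ((1 + m) * 2 ^ 48) := by
  refine (sum_le_sum fun j _ => sq_split (t := tr (d j)) hm (by exact_mod_cast tr_spec (d j))).trans_eq ?_
  rw [sum_add_distrib, ← mul_sum, sum_const, card_range, nsmul_eq_mul]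
  push_cast
  rfl

theorem sym_mul {P : ℤ[X]} {M : ℕ} (hd : P.natDegree ≤ M) (hs : ∀ j ≤ M, P.coeff (M - j) = P.coeff j) :
    ∀ j ≤ M + M, (P * P).coeff (M + M - j) = (P * P).coeff j := by
  have h : reflect M P = P := by
    ext j
    rw [coeff_reflect]
    rcases le_or_gt j M with h | h
    · rw [revAt_le h, hs j h]
    · rw [revAt_eq_self_of_lt h]
  intro j hj
  rw [← revAt_le hj, ← coeff_reflect, reflect_mul _ _ hd hd, h]

theorem center {V : ℕ} {c R : ℤ} (h : (V : ℤ) = c + 2 ^ 56 * R) (h0 : 0 ≤ c) (h1 : c < 2 ^ 56) :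
    c = dig V 0 ∧ ((V >>> 56 : ℕ) : ℤ) = R := by
  have := decode' (n := 1) (d := fun _ => c) (R := R) (by rwa [enc_one]) fun _ _ => ⟨h0, h1⟩
  exact ⟨this.1 0 one_pos, this.2.symm⟩

theorem shlZ (x k : ℕ) : ((Nat.shiftLeft x k : ℕ) : ℤ) = x * 2 ^ k := by
  change ((x <<< k : ℕ) : ℤ) = _
  rw [Nat.shiftLeft_eq]
  push_cast
  rfl

theorem lev2_sound {n bc bt A U : ℕ} {P : ℤ[X]} {m : ℝ} (hm : 0 < m) (hn : n < 2 ^ 24) (hd : P.natDegree ≤ 2 * (n + 1))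
    (hs : ∀ j ≤ 2 * (n + 1), P.coeff (2 * (n + 1) - j) = P.coeff j)
    (hq : ∑ i ∈ range (2 * (n + 1) + 1), P.coeff i ^ 2 ≤ 2 ^ 56 - 2 ^ 42) (hA : (A : ℤ) = enc (n + 1 + 1) P.coeff)
    (hU : (U : ℤ) = enc (n + 1) fun j => P.coeff (n + 1 + 1 + j)) (h : lev2 (ones (n + 1)) (n + 1) bc bt A U = true) :
    ∑ i ∈ range (4 * (n + 1) + 1), (((P * P).coeff i : ℤ) : ℝ) ^ 2 ≤
      (bc : ℝ) ^ 2 + 2 * ((1 + 1 / m) * 2 ^ 50 * bt + 2 * (n + 1 : ℕ) * ((1 + m) * 2 ^ 48)) := by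
  generalize hN : n + 1 = N at *
  have hb := coeff_mul_le (Nat.lt_succ_of_le hd) (Nat.lt_succ_of_le hd) hq hq
  have hy := sym_mul hd hs
  have hc : 0 ≤ (P * P).coeff (N + N) := by
    rw [coeff_mul]
    refine sum_nonneg fun x hx => ?_
    rw [HasAntidiagonal.mem_antidiagonal] at hx
    rw [← hs x.1 (by omega), show 2 * N - x.1 = x.2 by omega]
    exact mul_self_nonneg _
  have e : P.eval (2 ^ 56) = A + 2 ^ (56 * (N + 1)) * U := by
    rw [eval_enc (n := N + 1 + N) (by omega), enc_split, hA, hU]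
  have e' := eval_enc (P := P * P) (n := N + (N + (1 + (N + N)))) ((natDegree_mul_le_of_le hd hd).trans_lt (by omega))
  rw [eval_mul, e, enc_split, enc_split, enc_split, enc_split, enc_one, mul_add 56, pow_add] at e'
  generalize (P * P).coeff = c at *
  simp only [lev2, lev2b, Bool.and_eq_true, Nat.add_eq, Nat.mul_eq, Nat.shiftRight_eq, Nat.ble_eq] at h
  obtain ⟨k0, k1, k2, k3, k4, k5⟩ := h
  generalize h3 : (enc N fun j => c (N + (N + (1 + (N + j))))) = E3 at e'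
  generalize h2 : (enc N fun j => c (N + (N + (1 + j)))) = E2 at e'
  generalize h1 : (enc N fun j => c (N + j)) = E1 at e'
  rw [add_zero, mul_one] at e'
  obtain ⟨b0, t0, r0⟩ := chunk (d := c) (R := E1 + 2 ^ (56 * N) * (c (N + N) + 2 ^ 56 * (E2 + 2 ^ (56 * N) * E3)) -
    A * (U * 2 ^ 57) - 2 ^ (56 * N) * 2 ^ 56 * (U * (U * 2 ^ 56)))
    (by rw [Nat.cast_add, Nat.cast_mul]; linear_combination e') (fun j _ => hb j) k0
  obtain ⟨b1, t1, r1⟩ := chunk (d := fun j => c (N + j))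
    (R := c (N + N) + 2 ^ 56 * (E2 + 2 ^ (56 * N) * E3 - U * (U * 2 ^ 56)))
    (by rw [Nat.cast_add, Nat.cast_add, Nat.cast_mul, r0, shlZ, h1]; ring) (fun j _ => hb _) k1
  obtain ⟨c1, r1'⟩ := center r1 hc ((le_abs_self _).trans_lt ((hb _).trans_lt (by norm_num)))
  obtain ⟨b2, t2, r2⟩ := chunk (d := fun j => c (N + (N + (1 + j)))) (R := E3)
    (by rw [Nat.cast_add, Nat.cast_add, Nat.cast_mul, r1', shlZ, h2]; ring) (fun j _ => hb _) k2
  obtain ⟨b3, t3, -⟩ := chunk (d := fun j => c (N + (N + (1 + (N + j))))) (R := 0)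
    (by rw [Nat.cast_add, r2, h3]; ring) (fun j _ => hb _) k3
  have s3 : ∀ j < N, c (N + (N + (1 + (N + (n - j))))) = c j := fun j hj => by
    rw [← hy j (by omega)]
    exact congrArg c (by omega)
  have s2 : ∀ j < N, c (N + (N + (1 + (n - j)))) = c (N + j) := fun j hj => by
    rw [← hy (N + j) (by omega)]
    exact congrArg c (by omega)
  have f : ((∑ j ∈ range N, tr (c j) ^ 2 : ℤ) : ℝ) + ((∑ j ∈ range N, tr (c (N + j)) ^ 2 : ℤ) : ℝ) ≤ bt := by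
    subst hN
    exact_mod_cast lev3_sound hn t0 t1 t2 t3 b0 b1 b2 b3 (fun j hj => congrArg tr (s3 j hj)) (fun j hj => congrArg tr (s2 j hj)) k5
  have g0 := sum_sq_tr (N := N) hm c
  have g1 := sum_sq_tr (N := N) hm fun j => c (N + j)
  have g2 : (c (N + N) : ℝ) ^ 2 ≤ (bc : ℝ) ^ 2 :=
    pow_le_pow_left₀ (by exact_mod_cast hc) (by rw [c1]; exact_mod_cast k4) 2
  have v : ∀ {u w : ℕ → ℤ}, (∀ j < N, u (n - j) = w j) → ∑ j ∈ range N, (u j : ℝ) ^ 2 = ∑ j ∈ range N, (w j : ℝ) ^ 2 := by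
    intro u w huw
    subst hN
    rw [← sum_flip]
    exact sum_congr rfl fun j hj => by rw [huw j (mem_range.1 hj)]
  rw [show 4 * N + 1 = N + (N + (1 + (N + N))) by omega, sum_range_add, sum_range_add, sum_range_add,
    sum_range_add, sum_range_one, add_zero, v (u := fun j => c (N + (N + (1 + j)))) s2,
    v (u := fun j => c (N + (N + (1 + (N + j))))) s3]
  have g3 := mul_le_mul_of_nonneg_left f (show 0 ≤ (1 + 1 / m) * 2 ^ 50 by positivity)
  linarith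

theorem lev1_sound {n bc bt Gf Gr : ℕ} {g : ℕ → ℤ} {m : ℝ} (hm : 0 < m) (hn : n < 2 ^ 24)
    (hq : ∑ i ∈ range (n + 1 + 1), g i ^ 2 ≤ 2 ^ 56 - 2 ^ 42) (hf : (Gf : ℤ) = enc (n + 1 + 1) g)
    (hr : (Gr : ℤ) = enc (n + 1 + 1) fun j => g (n + 1 - j)) (h : lev1 (ones (n + 1)) (n + 1) bc bt Gf Gr = true) :
    ∃ P : ℤ[X], P.natDegree ≤ 2 * (n + 1) ∧
      (∀ j, |(pol (n + 1 + 1) g * reflect (n + 1) (pol (n + 1 + 1) g)).coeff j - 2 ^ 25 * P.coeff j| ≤ 2 ^ 24) ∧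
      ∑ i ∈ range (4 * (n + 1) + 1), (((P * P).coeff i : ℤ) : ℝ) ^ 2 ≤
        (bc : ℝ) ^ 2 + 2 * ((1 + 1 / m) * 2 ^ 50 * bt + 2 * (n + 1 : ℕ) * ((1 + m) * 2 ^ 48)) := by
  generalize hN : n + 1 = N at *
  have e1 : reflect N (pol (N + 1) g) = pol (N + 1) fun j => g (N - j) := by
    ext j
    rw [coeff_reflect, coeff_pol, coeff_pol]
    rcases le_or_gt j N with h | h
    · rw [revAt_le h, if_pos (by omega), if_pos (by omega)]
    · rw [revAt_eq_self_of_lt h, if_neg (by omega), if_neg (by omega)]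
  have d1 := natDegree_pol N g
  have d2 := natDegree_pol N fun j => g (N - j)
  have hy : ∀ j ≤ N + N, (pol (N + 1) g * reflect N (pol (N + 1) g)).coeff (N + N - j) =
      (pol (N + 1) g * reflect N (pol (N + 1) g)).coeff j := fun j hj => by
    rw [← revAt_le hj, ← coeff_reflect, reflect_mul _ _ d1 (e1 ▸ d2), reflect_reflect, mul_comm]
  rw [e1] at hy ⊢
  have hb := coeff_mul_le (a := 2 ^ 56 - 2 ^ 42) (Nat.lt_succ_of_le d1) (Nat.lt_succ_of_le d2)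
    (by rwa [sum_congr rfl fun j hj => by rw [coeff_pol, if_pos (mem_range.1 hj)]])
    (by rwa [sum_congr rfl fun j hj => by rw [coeff_pol, if_pos (mem_range.1 hj)], sum_flip fun j => g j ^ 2])
  have hc : 0 ≤ (pol (N + 1) g * pol (N + 1) fun j => g (N - j)).coeff N := by
    rw [coeff_mul]
    refine sum_nonneg fun x hx => ?_
    rw [HasAntidiagonal.mem_antidiagonal] at hx
    rw [coeff_pol, coeff_pol, if_pos (by omega), if_pos (by omega), show N - x.2 = x.1 by omega]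
    exact mul_self_nonneg _
  have d3 := natDegree_mul_le_of_le d1 d2
  have hz : ∀ j, N + N < j → (pol (N + 1) g * pol (N + 1) fun j => g (N - j)).coeff j = 0 :=
    fun j hj => coeff_eq_zero_of_natDegree_lt (d3.trans_lt hj)
  have e' := eval_enc (n := N + (1 + N)) (d3.trans_lt (by omega))
  rw [eval_mul, eval_pol, eval_pol, ← hf, ← hr, enc_split, enc_split, enc_one, add_zero] at e'
  generalize (pol (N + 1) g * pol (N + 1) fun j => g (N - j)).coeff = c at *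
  simp only [lev1, lev1b, Bool.and_eq_true, Nat.add_eq, Nat.mul_eq, Nat.sub_eq, Nat.shiftRight_eq, Nat.ble_eq] at h
  obtain ⟨k0, k1, k2, k3, k4, k5⟩ := h
  obtain ⟨b0, t0, r0⟩ := chunk (d := c) (R := c N + 2 ^ 56 * enc N fun j => c (N + (1 + j)))
    (by rw [Nat.cast_add, Nat.cast_mul]; linear_combination e') (fun j _ => hb j) k0
  obtain ⟨c1, r1⟩ := center (c := c N) r0 hc ((le_abs_self _).trans_lt ((hb _).trans_lt (by norm_num)))
  obtain ⟨b1, t1, -⟩ := chunk (d := fun j => c (N + (1 + j))) (R := 0) (by rw [Nat.cast_add, r1]; ring) (fun j _ => hb _) k1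
  have p1 : (((dig ((Gf * Gr + oK (ones N)) >>> (56 * N)) 0 + 16777216) >>> 25 : ℕ) : ℤ) = tr (c N) := by
    rw [c1, tr, Nat.shiftRight_eq_div_pow]
    push_cast
    rfl
  have o1 : ((Nat.shiftLeft (ones N) 15 : ℕ) : ℤ) = enc N fun _ => 32768 := by
    rw [shlZ]
    exact_mod_cast ones_cast N 32768
  have cP : ∀ j < 2 * N + 1, (pol (2 * N + 1) fun j => tr (c j)).coeff j = tr (c j) := fun j hj => by rw [coeff_pol, if_pos hj]
  refine ⟨pol (2 * N + 1) fun j => tr (c j), natDegree_pol _ _, fun j => ?_, ?_⟩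
  · rw [coeff_pol]
    split_ifs with hj
    · exact tr_spec _
    · rw [hz j (by omega)]
      norm_num
  have sq : ∀ {d : ℕ → ℤ}, (∀ j < N, -32768 ≤ tr (d j) ∧ tr (d j) < 32768) → ∑ j ∈ range N, tr (d j) ^ 2 ≤ N * 32768 ^ 2 :=
    fun hd => by
      simpa using sum_le_card_nsmul (range N) _ (32768 ^ 2) fun j hj => sq_le_sq' (hd j (mem_range.1 hj)).1 (hd j (mem_range.1 hj)).2.le
  have hq' : ∑ i ∈ range (2 * N + 1), (pol (2 * N + 1) fun j => tr (c j)).coeff i ^ 2 ≤ 2 ^ 56 - 2 ^ 42 := by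
    rw [sum_congr rfl fun j hj => by rw [cP j (mem_range.1 hj)], show 2 * N + 1 = N + (1 + N) by omega,
      sum_range_add, sum_range_add, sum_range_one, add_zero]
    have h1 := sq b0
    have h2 := sq b1
    have h3 : tr (c N) ^ 2 ≤ 8388608 ^ 2 := by
      rw [← p1]
      exact_mod_cast Nat.pow_le_pow_left k2 2
    omega
  subst hN
  refine lev2_sound hm hn (natDegree_pol _ _) (fun j hj => ?_) hq' ?_ ?_ k5
  · rw [cP _ (by omega), cP _ (by omega), ← hy j (by omega), two_mul]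
  · rw [Nat.cast_sub k3, Nat.cast_add, shift_cast t0, shlZ, p1, o1, enc_add, enc_split (n + 1) 1, enc_one, add_zero,
      cP _ (by omega), enc_congr (f := (pol _ _).coeff) fun j hj => cP j (by omega)]
    ring
  · rw [Nat.cast_sub k4, shift_cast t1, o1, enc_add, add_sub_cancel_right]
    exact enc_congr fun j hj => by rw [cP _ (by omega), add_assoc (n + 1) 1 j]

end Cfsg.Agent.Depth.L
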