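import Cfsg.Agent.Depth.L.S47
import Cfsg.Agent.Depth.L.R47a
import Cfsg.Agent.Depth.L.R47b
import Cfsg.Agent.Depth.L.R47c
import Cfsg.Agent.Depth.L.R47d

/-! The certified data of the class `47`. -/

set_option autoImplicit false
set_option Elab.async false

namespace Cfsg.Agent.Depth.L

noncomputable def R47 : ℕ := (Nat.lor (Nat.lor R47d (Nat.shiftLeft R47c 6881280)) (Nat.shiftLeft (Nat.lor R47b (Nat.shiftLeft R47a 6881280)) 13762560))

theorem r47 : RV 27525120 S47 R47 :=
  (RV.join 27525120 (RV.join 13762560 r47a r47b (by decide)) (RV.join 13762560 r47c r47d (by decide)) (by decide))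

theorem sd47 : SD 47 S47 R47 := sd_of s47 r47 (by decide +kernel)

end Cfsg.Agent.Depth.L
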