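import Cfsg.Agent.Depth.L.MDefs

/-!
# Depth L: the tables computed by one exact division (helper46)
-/

set_option autoImplicit false

namespace Cfsg.Agent.Depth.L.TB

open Finset

/-- the base of the lanes -/
def Bz : ℤ := 2 ^ 56

theorem Bz_pow (j : ℕ) : Bz ^ j = 2 ^ (56 * j) := by rw [Bz, pow_mul]

theorem shl_cast (a j : ℕ) : ((Nat.shiftLeft a (Nat.mul 56 j) : ℕ) : ℤ) = a * Bz ^ j := by
  rw [Bz_pow]
  show ((a <<< (56 * j) : ℕ) : ℤ) = _
  rw [Nat.shiftLeft_eq]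
  push_cast
  rfl

theorem lz_eq (f : ℕ → ℤ) (r p m : ℕ) : lz f r p m = ∑ k ∈ range m, f (r + p * k) * Bz ^ (r + p * k) := by
  induction m with
  | zero => rfl
  | succ m ih =>
    rw [sum_range_succ, ← ih]
    show lz f r p m + f (r + p * m) * ((Nat.shiftLeft 1 (Nat.mul 56 (r + p * m)) : ℕ) : ℤ) = _
    rw [shl_cast]
    simp

theorem EE_eq (q : ℕ) : EE q = Bz ^ q - 1 := by
  have h := shl_cast 1 q
  have h0 : 0 < Nat.shiftLeft 1 (Nat.mul 56 q) := by
    show 0 < 1 <<< (56 * q)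
    rw [Nat.shiftLeft_eq]
    positivity
  show ((Nat.pred (Nat.shiftLeft 1 (Nat.mul 56 q)) : ℕ) : ℤ) = _
  generalize Nat.shiftLeft 1 (Nat.mul 56 q) = t at h h0
  obtain ⟨t, rfl⟩ : ∃ u, t = u + 1 := ⟨t - 1, by omega⟩
  rw [Nat.pred_succ]
  push_cast at h
  linarith

theorem z0_eq (w : ℕ → ℤ) (δ L r p m : ℕ) :
    z0 w δ L r p m = ∑ k ∈ range m, w (L + δ * (r + p * k)) * Bz ^ (r + p * k) := lz_eq _ r p m

theorem z1_eq (w : ℕ → ℤ) (δ L r p m : ℕ) :
    z1 w δ L r p m = ∑ k ∈ range m, ((r + p * k : ℕ) : ℤ) * w (L + δ * (r + p * k)) * Bz ^ (r + p * k) := lz_eq _ r p m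

theorem z0_full (w : ℕ → ℤ) (δ L m : ℕ) : z0 w δ L 0 1 m = ∑ k ∈ range m, w (L + δ * k) * Bz ^ k := by
  rw [z0_eq]
  simp

theorem z1_full (w : ℕ → ℤ) (δ L m : ℕ) : z1 w δ L 0 1 m = ∑ k ∈ range m, (k : ℤ) * w (L + δ * k) * Bz ^ k := by
  rw [z1_eq]
  simp

theorem z0_step (w : ℕ → ℤ) (δ L m : ℕ) :
    Bz * z0 w δ (L + δ) 0 1 m = z0 w δ L 0 1 m - w L + w (L + δ * m) * Bz ^ m := by
  rw [z0_full, z0_full]
  induction m with
  | zero => simp
  | succ m ih =>
    rw [sum_range_succ, sum_range_succ, mul_add, ih, show L + δ + δ * m = L + δ * (m + 1) by ring]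
    ring

theorem z1_step (w : ℕ → ℤ) (δ L m : ℕ) :
    Bz * z1 w δ (L + δ) 0 1 m =
      z1 w δ L 0 1 m - z0 w δ L 0 1 m + w L + (m - 1) * w (L + δ * m) * Bz ^ m := by
  rw [z1_full, z1_full, z0_full]
  induction m with
  | zero => simp
  | succ m ih =>
    rw [sum_range_succ, sum_range_succ, sum_range_succ, mul_add, ih, show L + δ + δ * m = L + δ * (m + 1) by ring]
    push_cast
    ring

/-- the recursion satisfied by the two boundary terms of the function `d` -/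
def Rel (δ : ℕ) (D : ℤ) (n0 n1 d : ℕ → ℤ) : Prop :=
  ∀ L, Bz * n0 (L + δ) = n0 L + D * d L ∧ Bz * n1 (L + δ) + Bz * n0 (L + δ) = n1 L

theorem dense_0 (δ q : ℕ) (w : ℕ → ℤ) (L : ℕ) : (dense δ q w).2.1 L = EE q * z0 w δ L 0 1 q := rfl

theorem nB_eq (q : ℕ) (S0 S1 : ℤ) : nB q S0 S1 = EE q * S1 - q * (EE q + 1) * S0 := rfl

theorem dense_1 (δ q : ℕ) (w : ℕ → ℤ) (L : ℕ) : (dense δ q w).2.2 L = nB q (z0 w δ L 0 1 q) (z1 w δ L 0 1 q) := rfl

theorem rel_dense (δ q : ℕ) (w : ℕ → ℤ) (h : ∀ L, w (L + δ * q) = w L) :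
    Rel δ (EE q * EE q) (dense δ q w).2.1 (dense δ q w).2.2 w := by
  intro L
  have h0 := z0_step w δ L q
  have h1 := z1_step w δ L q
  rw [h] at h0 h1
  rw [dense_0, dense_0, dense_1, dense_1, nB_eq, nB_eq, EE_eq]
  constructor
  · linear_combination (Bz ^ q - 1) * h0
  · linear_combination (Bz ^ q - 1) * h1 + (Bz ^ q - 1 - q * Bz ^ q) * h0

theorem GG_eq (p q : ℕ) : GG p q * (EE p * EE p) = EE (p * q) * EE (p * q) := by
  have h : EE p ∣ EE (p * q) := by
    rw [EE_eq, EE_eq, pow_mul]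
    simpa using sub_dvd_pow_sub_pow (Bz ^ p) 1 q
  have h1 : EE p * (EE (p * q) / EE p) = EE (p * q) := Int.mul_ediv_cancel' h
  show EE (p * q) / EE p * (EE (p * q) / EE p) * (EE p * EE p) = _
  linear_combination (EE p * (EE (p * q) / EE p) + EE (p * q)) * h1

theorem sum_sparse (F : ℕ → ℤ) {r q : ℕ} (hr : r < q) (p : ℕ) :
    ∑ k ∈ range p, F (r + q * k) = ∑ j ∈ range (p * q), if j % q = r then F j else 0 := by
  induction p with
  | zero => simp
  | succ p ih =>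
    rw [sum_range_succ, ih, Nat.succ_mul, sum_range_add]
    congr 1
    rw [sum_eq_single r]
    · rw [if_pos (by rw [Nat.mul_add_mod_self_right, Nat.mod_eq_of_lt hr])]
      congr 1
      ring
    · intro i hi hir
      rw [if_neg (by rw [Nat.mul_add_mod_self_right, Nat.mod_eq_of_lt (mem_range.1 hi)]; exact hir)]
    · intro h
      exact absurd (mem_range.2 hr) h

theorem pos_lt (ι e L : ℕ) {q : ℕ} (hq : 0 < q) : pos ι q e L < q := Nat.mod_lt _ hq

theorem pos_iff {δ ι q e : ℕ} (h : δ * ι ≡ 1 [MOD q]) (he : e < q) (L j : ℕ) :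
    j % q = pos ι q e L ↔ (L + δ * j) % q = e := by
  have hL : L % q < q := Nat.mod_lt _ (by omega)
  have hu : L + (e + q - L % q) ≡ e [MOD q] := by
    have h1 : L + (e + q - L % q) = e + q * (L / q + 1) := by
      have := Nat.div_add_mod L q
      rw [mul_add]
      omega
    rw [h1]
    exact Nat.add_mul_mod_self_left e q _
  show j ≡ (e + q - L % q) * ι [MOD q] ↔ _
  generalize e + q - L % q = u at hu
  constructor
  · intro hj
    have h1 : δ * j ≡ u [MOD q] := by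
      have h2 : δ * j ≡ u * (δ * ι) [MOD q] := by
        rw [show u * (δ * ι) = δ * (u * ι) by ring]
        exact hj.mul_left δ
      simpa using h2.trans (h.mul_left u)
    have h3 : L + δ * j ≡ e [MOD q] := (h1.add_left L).trans hu
    rw [h3, Nat.mod_eq_of_lt he]
  · intro hj
    have h3 : L + δ * j ≡ e [MOD q] := by
      unfold Nat.ModEq
      rw [hj, Nat.mod_eq_of_lt he]
    have h1 : δ * j ≡ u [MOD q] := Nat.ModEq.add_left_cancel' L (h3.trans hu.symm)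
    have h2 : j * (δ * ι) ≡ u * ι [MOD q] := by
      rw [show j * (δ * ι) = δ * j * ι by ring]
      exact h1.mul_right ι
    have h4 : j * (δ * ι) ≡ j [MOD q] := by simpa using h.mul_left j
    exact h4.symm.trans h2

/-- `w` on the classes `0`, `1` mod `q` -/
def cut (q : ℕ) (w : ℕ → ℤ) (l : ℕ) : ℤ := if l % q ≤ 1 then w l else 0

theorem sparse_two {δ ι q : ℕ} (h : δ * ι ≡ 1 [MOD q]) (hq : 1 < q) (F : ℕ → ℤ) (L p : ℕ) :
    ∑ k ∈ range p, F (pos ι q 0 L + q * k) + ∑ k ∈ range p, F (pos ι q 1 L + q * k) =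
      ∑ j ∈ range (p * q), if (L + δ * j) % q ≤ 1 then F j else 0 := by
  rw [sum_sparse F (pos_lt ι 0 L (by omega)), sum_sparse F (pos_lt ι 1 L (by omega)), ← sum_add_distrib]
  refine sum_congr rfl fun j _ => ?_
  simp only [pos_iff h (show 0 < q by omega), pos_iff h hq]
  split_ifs <;> omega

theorem z0_sparse {δ ι q : ℕ} (h : δ * ι ≡ 1 [MOD q]) (hq : 1 < q) (w : ℕ → ℤ) (L p : ℕ) :
    z0 w δ L (pos ι q 0 L) q p + z0 w δ L (pos ι q 1 L) q p = z0 (cut q w) δ L 0 1 (p * q) := by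
  rw [z0_eq, z0_eq, z0_full, sparse_two h hq fun j => w (L + δ * j) * Bz ^ j]
  refine sum_congr rfl fun j _ => ?_
  unfold cut
  split_ifs <;> simp

theorem z1_sparse {δ ι q : ℕ} (h : δ * ι ≡ 1 [MOD q]) (hq : 1 < q) (w : ℕ → ℤ) (L p : ℕ) :
    z1 w δ L (pos ι q 0 L) q p + z1 w δ L (pos ι q 1 L) q p = z1 (cut q w) δ L 0 1 (p * q) := by
  rw [z1_eq, z1_eq, z1_full, sparse_two h hq fun j => (j : ℤ) * w (L + δ * j) * Bz ^ j]
  refine sum_congr rfl fun j _ => ?_
  unfold cut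
  split_ifs <;> simp

theorem rel_pair {δ ι p q : ℕ} (h : δ * ι ≡ 1 [MOD q]) (hq : 1 < q) (wa wb : ℕ → ℤ)
    (ha : ∀ L, wa (L + δ * p) = wa L) (hb : ∀ L, wb (L + δ * (p * q)) = wb L) :
    Rel δ (EE (p * q) * EE (p * q)) (pair δ ι p q wa wb).2.1 (pair δ ι p q wa wb).2.2 fun l => wa l - cut q wb l := by
  have e0 : ∀ L, (pair δ ι p q wa wb).2.1 L = GG p q * (dense δ p wa).2.1 L - (dense δ (p * q) (cut q wb)).2.1 L := by
    intro L
    rw [dense_0 δ (p * q), ← z0_sparse h hq]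
    rfl
  have e1 : ∀ L, (pair δ ι p q wa wb).2.2 L = GG p q * (dense δ p wa).2.2 L - (dense δ (p * q) (cut q wb)).2.2 L := by
    intro L
    rw [dense_1 δ (p * q), ← z0_sparse h hq, ← z1_sparse h hq]
    rfl
  have hc : ∀ L, cut q wb (L + δ * (p * q)) = cut q wb L := by
    intro L
    unfold cut
    rw [hb, ← mul_assoc, Nat.add_mul_mod_self_right]
  intro L
  obtain ⟨a0, a1⟩ := rel_dense δ p wa ha L
  obtain ⟨b0, b1⟩ := rel_dense δ (p * q) (cut q wb) hc L
  rw [e0, e0, e1, e1]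
  constructor
  · linear_combination GG p q * a0 - b0 + wa L * GG_eq p q
  · linear_combination GG p q * a1 - b1

theorem DD_cons (z : ℤ) (c : Cp) (t : List Cp) : DD z (c :: t) = DD z t * (EE c.1 * EE c.1) := rfl

theorem NN_cons (z : ℤ) (f : Cp → ℤ) (c : Cp) (t : List Cp) :
    NN z f (c :: t) = NN z f t * (EE c.1 * EE c.1) + f c * DD (EE 1 * EE 1) t := rfl

theorem Ph_nil (c0 off : ℤ) (L : ℕ) (a β : ℤ) :
    Ph [] c0 off L a β = off * EE 1 + (a * EE 1 - β * (EE 1 + 1)) * c0 := rfl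

theorem Ph_cons (c : Cp) (t : List Cp) (c0 off : ℤ) (L : ℕ) (a β : ℤ) :
    Ph (c :: t) c0 off L a β =
      Ph t c0 off L a β * (EE c.1 * EE c.1) + (a * c.2.1 L + β * c.2.2 L) * DD (EE 1 * EE 1) t := by
  show off * DD (EE 1) (c :: t) + NN _ _ (c :: t) = (off * DD (EE 1) t + NN _ _ t) * _ + _
  rw [DD_cons, NN_cons]
  show _ + (_ + (a * c.2.1 L + β * c.2.2 L) * _) = _
  ring

theorem Ph_sub (l : List Cp) (c0 off : ℤ) (L : ℕ) (a β a' β' : ℤ) :
    Ph l c0 0 L (a - a') (β - β') = Ph l c0 off L a β - Ph l c0 off L a' β' := by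
  induction l with
  | nil => simp only [Ph_nil]; ring
  | cons c t ih => simp only [Ph_cons, ih]; ring

/-- the recursion of `Ph` for a list of components whose functions add up to `s` -/
def LRel (δ : ℕ) (l : List Cp) (s : ℕ → ℤ) : Prop :=
  ∀ (c0 off : ℤ) (L : ℕ) (a β : ℤ),
    Bz * Ph l c0 off (L + δ) (a + β) β = Ph l c0 off L a β + DD (EE 1 * EE 1) l * (off + a * (c0 + s L))

theorem lrel_nil (δ : ℕ) : LRel δ [] fun _ => 0 := by
  intro c0 off L a β
  rw [Ph_nil, Ph_nil]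
  show _ = _ + EE 1 * EE 1 * _
  rw [EE_eq]
  ring

theorem LRel.cons {δ : ℕ} {t : List Cp} {s : ℕ → ℤ} (ht : LRel δ t s) {c : Cp} {d : ℕ → ℤ}
    (hc : Rel δ (EE c.1 * EE c.1) c.2.1 c.2.2 d) : LRel δ (c :: t) fun l => d l + s l := by
  intro c0 off L a β
  obtain ⟨h0, h1⟩ := hc L
  rw [Ph_cons, Ph_cons, DD_cons]
  linear_combination (EE c.1 * EE c.1) * ht c0 off L a β + DD (EE 1 * EE 1) t * (a * h0 + β * h1)

theorem LRel.tele {δ : ℕ} {l : List Cp} {s : ℕ → ℤ} (h : LRel δ l s) (c0 off : ℤ) (l0 : ℕ) (α β : ℤ) (x m : ℕ) :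
    Bz ^ (x + m) * Ph l c0 off (l0 + δ * (x + m)) (α + β * (x + m : ℕ)) β =
      Bz ^ x * Ph l c0 off (l0 + δ * x) (α + β * x) β + DD (EE 1 * EE 1) l *
        ∑ j ∈ range m, (off + (α + β * (x + j : ℕ)) * (c0 + s (l0 + δ * (x + j)))) * Bz ^ (x + j) := by
  induction m with
  | zero => simp
  | succ m ih =>
    have h1 := h c0 off (l0 + δ * (x + m)) (α + β * (x + m : ℕ)) β
    rw [show l0 + δ * (x + m) + δ = l0 + δ * (x + (m + 1)) by ring,
      show α + β * (x + m : ℕ) + β = α + β * (x + (m + 1) : ℕ) by push_cast; ring] at h1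
    rw [sum_range_succ]
    linear_combination ih + Bz ^ (x + m) * h1

theorem nneg_iff {z : ℤ} (h : nneg z = true) : 0 ≤ z := by
  cases z with
  | ofNat n => exact Int.natCast_nonneg n
  | negSucc n => exact absurd h (by show ¬ false = true; simp)

theorem LRel.tab_eq {δ : ℕ} {l : List Cp} {s : ℕ → ℤ} (h : LRel δ l s) (c0 off : ℤ) (l0 n x : ℕ) (α β α' β' : ℤ)
    (hx : x ≤ n) (ok : tabOK l c0 off l0 δ n x α β α' β' = true) :
    (tab l c0 off l0 δ n x α β α' β' : ℤ) = enc n fun j => off + seg x α β α' β' j * (c0 + s (l0 + δ * j)) := by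
  obtain ⟨m, rfl⟩ := Nat.exists_eq_add_of_le hx
  simp only [tabOK, Bool.and_eq_true] at ok
  obtain ⟨o1, o2, o3, o4⟩ := ok
  have o1 : 0 ≤ Ph l c0 off (l0 + δ * (x + m)) (α' + β' * (x + m : ℕ)) β' := nneg_iff o1
  have o2 := nneg_iff o2
  have o3 := nneg_iff o3
  have o4 : (Ph l c0 off l0 α β).toNat < (DD (EE 1 * EE 1) l).toNat := by simpa using o4
  have t1 := h.tele c0 off l0 α' β' x m
  have t2 := h.tele c0 off l0 α β 0 x
  simp only [zero_add, pow_zero, one_mul, mul_zero, add_zero, Nat.cast_zero] at t2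
  have e1 : tnum l c0 off l0 δ (x + m) x α β α' β' =
      Ph l c0 off (l0 + δ * (x + m)) (α' + β' * (x + m : ℕ)) β' * Bz ^ m +
        (Ph l c0 off (l0 + δ * x) (α + β * x) β - Ph l c0 off (l0 + δ * x) (α' + β' * x) β') := by
    rw [← Ph_sub, show α + β * x - (α' + β' * x) = α - α' + (β - β') * x by ring]
    show ((Nat.shiftLeft (Ph l c0 off (l0 + δ * (x + m)) (α' + β' * (x + m : ℕ)) β').toNat
      (Nat.mul 56 (x + m - x)) : ℕ) : ℤ) + _ = _
    rw [shl_cast, Int.toNat_of_nonneg o1, Nat.add_sub_cancel_left]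
    rfl
  have e2 : (enc (x + m) fun j => off + seg x α β α' β' j * (c0 + s (l0 + δ * j))) =
      ∑ j ∈ range x, (off + (α + β * j) * (c0 + s (l0 + δ * j))) * Bz ^ j +
        ∑ j ∈ range m, (off + (α' + β' * (x + j : ℕ)) * (c0 + s (l0 + δ * (x + j)))) * Bz ^ (x + j) := by
    unfold enc
    rw [sum_range_add]
    congr 1
    · refine sum_congr rfl fun j hj => ?_
      beta_reduce
      rw [Bz_pow, seg, if_pos (mem_range.1 hj)]
    · refine sum_congr rfl fun j _ => ?_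
      beta_reduce
      rw [Bz_pow, seg, if_neg (by omega)]
  have e3 : tnum l c0 off l0 δ (x + m) x α β α' β' * Bz ^ x = Ph l c0 off l0 α β + DD (EE 1 * EE 1) l *
      enc (x + m) fun j => off + seg x α β α' β' j * (c0 + s (l0 + δ * j)) := by
    rw [e1, e2]
    linear_combination t1 + t2
  have hD : 0 < DD (EE 1 * EE 1) l := by omega
  show ((Nat.shiftLeft (tnum l c0 off l0 δ (x + m) x α β α' β').toNat (Nat.mul 56 x) /
    (DD (EE 1 * EE 1) l).toNat : ℕ) : ℤ) = _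
  rw [Int.natCast_div, shl_cast, Int.toNat_of_nonneg o2, Int.toNat_of_nonneg hD.le, e3,
    Int.add_mul_ediv_left _ _ hD.ne', Int.ediv_eq_zero_of_lt o3 (by omega), zero_add]

theorem w7_congr {l l' : ℕ} (h : l % 7 = l' % 7) : w7 l = w7 l' := by
  show (0x9585900 >>> (4 * (l % 7))) % 16 = (0x9585900 >>> (4 * (l' % 7))) % 16
  rw [h]

theorem w11_congr {l l' : ℕ} (h : l % 11 = l' % 11) : w11 l = w11 l' := by
  show (0x85757575800 >>> (4 * (l % 11))) % 16 = (0x85757575800 >>> (4 * (l' % 11))) % 16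
  rw [h]

theorem w7_eq (l : ℕ) : w7 l = [0, 0, 9, 5, 8, 5, 9].getD (l % 7) 0 := by
  show (0x9585900 >>> (4 * (l % 7))) % 16 = _
  have : l % 7 < 7 := Nat.mod_lt _ (by norm_num)
  generalize l % 7 = r at this
  interval_cases r <;> decide

theorem w11_eq (l : ℕ) : w11 l = [0, 0, 8, 5, 7, 5, 7, 5, 7, 5, 8].getD (l % 11) 0 := by
  show (0x85757575800 >>> (4 * (l % 11))) % 16 = _
  have : l % 11 < 11 := Nat.mod_lt _ (by norm_num)
  generalize l % 11 = r at this
  interval_cases r <;> decide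

theorem w7_le (l : ℕ) : w7 l ≤ 9 := by
  rw [w7_eq]
  have : l % 7 < 7 := Nat.mod_lt _ (by norm_num)
  generalize l % 7 = r at this
  interval_cases r <;> decide

theorem w11_le (l : ℕ) : w11 l ≤ 8 := by
  rw [w11_eq]
  have : l % 11 < 11 := Nat.mod_lt _ (by norm_num)
  generalize l % 11 = r at this
  interval_cases r <;> decide

theorem QQ_7 : 7 ∣ QQ := by decide +kernel

theorem QQ_11 : 11 ∣ QQ := by decide +kernel

theorem _root_.Cfsg.Agent.Depth.L.boxTabW : BoxTabW := by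
  refine ⟨fun l => (w7 l * w11 l : ℕ), fun l l' h => ?_, fun l => ?_, fun δ off l0 n x α β α' β' hx ok => ?_⟩
  · show ((w7 l * w11 l : ℕ) : ℤ) = (w7 l' * w11 l' : ℕ)
    rw [w7_congr (h.of_dvd QQ_7), w11_congr (h.of_dvd QQ_11)]
  · show |((w7 l * w11 l : ℕ) : ℤ)| ≤ 72
    rw [abs_of_nonneg (Int.natCast_nonneg _)]
    exact_mod_cast Nat.mul_le_mul (w7_le l) (w11_le l)
  · have hr := (lrel_nil δ).cons (c := dense δ 77 fun l => Int.ofNat (Nat.mul (w7 l) (w11 l)))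
      (rel_dense δ 77 _ fun L => by
        show ((w7 _ * w11 _ : ℕ) : ℤ) = (w7 L * w11 L : ℕ)
        rw [w7_congr (l := L + δ * 77) (l' := L) (by omega), w11_congr (l := L + δ * 77) (l' := L) (by omega)])
    refine (hr.tab_eq 0 off l0 n x α β α' β' hx ok).trans ?_
    simp

theorem ph_one (l : ℕ) : ph 1 l = 1 := rfl

theorem ph_7 (l : ℕ) : ph 7 l = 7 * w7 l - 36 := by
  show Int.subNatNat (7 * w7 l) 36 = _
  rw [Int.subNatNat_eq_coe]
  push_cast
  rfl

theorem ph_11 (l : ℕ) : ph 11 l = 11 * w11 l - 57 := by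
  show Int.subNatNat (11 * w11 l) 57 = _
  rw [Int.subNatNat_eq_coe]
  push_cast
  rfl

theorem beq_false {a b : ℕ} (h : a ≠ b) : Nat.beq a b = false := by
  cases hb : Nat.beq a b with
  | false => rfl
  | true => exact absurd (Nat.eq_of_beq_eq_true hb) h

theorem ph_big {p : ℕ} (hp : 13 ≤ p) (l : ℕ) : ph p l = if l % p ≤ 1 then 2 - (p : ℤ) else 2 := by
  unfold ph
  rw [beq_false (show p ≠ 1 by omega), beq_false (show p ≠ 7 by omega), beq_false (show p ≠ 11 by omega)]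
  show (bif Nat.ble (l % p) 1 then Int.subNatNat 2 p else 2) = _
  split_ifs with h
  · rw [Nat.ble_eq_true_of_le h, Int.subNatNat_eq_coe]
    rfl
  · have : Nat.ble (l % p) 1 = false := by
      cases hb : Nat.ble (l % p) 1 with
      | false => rfl
      | true => exact absurd (Nat.le_of_ble_eq_true hb) h
    rw [this]
    rfl

theorem dn_big {p : ℕ} (hp : 13 ≤ p) : dn p = p - 2 := by
  unfold dn
  rw [beq_false (show p ≠ 1 by omega), beq_false (show p ≠ 7 by omega), beq_false (show p ≠ 11 by omega)]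
  rfl

/-- the admissible moduli -/
def Adm (p : ℕ) : Prop := p = 1 ∨ p = 7 ∨ p = 11 ∨ 13 ≤ p

theorem ph_congr {p l l' : ℕ} (hp : Adm p) (h : l % p = l' % p) : ph p l = ph p l' := by
  rcases hp with rfl | rfl | rfl | hp
  · rfl
  · rw [ph_7, ph_7, w7_congr h]
  · rw [ph_11, ph_11, w11_congr h]
  · rw [ph_big hp, ph_big hp, h]

theorem dn_pos {p : ℕ} (hp : Adm p) : 0 < dn p := by
  rcases hp with rfl | rfl | rfl | hp
  · decide
  · decide
  · decide
  · rw [dn_big hp]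
    omega

theorem abs_ph_le {p : ℕ} (hp : Adm p) (l : ℕ) : |ph p l| ≤ dn p := by
  rcases hp with rfl | rfl | rfl | hp
  · exact le_rfl
  · have := w7_le l
    rw [ph_7, show dn 7 = 36 from rfl, abs_le]
    omega
  · have := w11_le l
    rw [ph_11, show dn 11 = 57 from rfl, abs_le]
    omega
  · rw [ph_big hp, dn_big hp, abs_le]
    split_ifs <;> omega

/-- the factor of `p` in the model -/
def tmQ (p l : ℕ) : ℚ := if p = 1 then 1 else omQ p (l % p) - 1

theorem tm_eq {p : ℕ} (hp : Adm p) (l : ℕ) : tmQ p l = (ph p l : ℚ) / dn p := by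
  unfold tmQ
  rcases hp with rfl | rfl | rfl | hp
  · rw [if_pos rfl, ph_one, show dn 1 = 1 from rfl]
    simp
  · rw [if_neg (by norm_num), ph_7, show dn 7 = 36 from rfl, w7_eq, omQ, if_pos rfl]
    push_cast
    ring
  · rw [if_neg (by norm_num), ph_11, show dn 11 = 57 from rfl, w11_eq, omQ, if_neg (by norm_num), if_pos rfl]
    push_cast
    ring
  · have h2 : ((p - 2 : ℕ) : ℚ) = p - 2 := by rw [Nat.cast_sub (by omega)]; rfl
    have h3 : (p : ℚ) - 2 ≠ 0 := by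
      have : (13 : ℚ) ≤ p := by exact_mod_cast hp
      intro h
      linarith
    rw [if_neg (by omega), ph_big hp, dn_big hp, omQ, if_neg (by omega), if_neg (by omega), h2]
    split_ifs
    · push_cast
      field_simp
      ring
    · push_cast
      field_simp
      ring

theorem abs_tm_le {p : ℕ} (hp : Adm p) (l : ℕ) : |tmQ p l| ≤ 1 := by
  have h0 : (0 : ℚ) < dn p := by exact_mod_cast dn_pos hp
  rw [tm_eq hp, abs_div, abs_of_pos h0, div_le_one h0]
  exact_mod_cast abs_ph_le hp l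

theorem floor_err (a : ℤ) (d : ℕ) : (a : ℚ) / d - 1 ≤ (a / d : ℤ) ∧ ((a / d : ℤ) : ℚ) ≤ (a : ℚ) / d := by
  rw [← Rat.floor_intCast_div_natCast]
  exact ⟨(Int.sub_one_lt_floor _).le, Int.floor_le _⟩

theorem val_err {p q : ℕ} (hp : Adm p) (hq : Adm q) (k l : ℕ) {d : ℕ} (hd : d = dn p * dn q) :
    |(val k p q d l : ℚ) - k * (tmQ p l * tmQ q l)| ≤ 1 := by
  have h := floor_err (k * (ph p l * ph q l)) (dn p * dn q)
  have e : ((k * (ph p l * ph q l) : ℤ) : ℚ) / (dn p * dn q : ℕ) = k * (tmQ p l * tmQ q l) := by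
    rw [tm_eq hp, tm_eq hq]
    push_cast
    ring
  rw [e] at h
  subst hd
  show |((k * (ph p l * ph q l) / (dn p * dn q : ℕ) : ℤ) : ℚ) - _| ≤ 1
  rw [abs_le]
  constructor <;> linarith [h.1, h.2]

/-- the function of a pair -/
def dP (K : ℕ) (x : ℕ × ℕ) (l : ℕ) : ℤ :=
  val (Nat.mul 2 K) x.1 1 (Nat.mul (dn x.1) (dn x.2)) l - cut x.2 (val (Nat.mul x.2 K) x.1 1 (Nat.mul (dn x.1) (dn x.2))) l

theorem dP_err {p q : ℕ} (hp : Adm p) (hq : 13 ≤ q) (K l : ℕ) :
    |(dP K (p, q) l : ℚ) - K * (tmQ p l * tmQ q l)| ≤ 1 := by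
  have hq' : Adm q := Or.inr (Or.inr (Or.inr hq))
  have ha := floor_err ((2 * K : ℕ) * (ph p l * 1)) (dn p * dn q)
  have hb := floor_err ((q * K : ℕ) * (ph p l * 1)) (dn p * dn q)
  rw [tm_eq hp, tm_eq hq', ph_big hq]
  show |((((2 * K : ℕ) * (ph p l * 1)) / (dn p * dn q : ℕ) -
    (if l % q ≤ 1 then ((q * K : ℕ) * (ph p l * 1)) / (dn p * dn q : ℕ) else 0) : ℤ) : ℚ) - _| ≤ 1
  generalize ((2 * K : ℕ) * (ph p l * 1)) / ((dn p * dn q : ℕ) : ℤ) = u at ha
  generalize ((q * K : ℕ) * (ph p l * 1)) / ((dn p * dn q : ℕ) : ℤ) = v at hb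
  have e1 : (((2 * K : ℕ) * (ph p l * 1) : ℤ) : ℚ) / (dn p * dn q : ℕ) = 2 * (K * ((ph p l : ℚ) / dn p / dn q)) := by
    push_cast
    ring
  have e2 : (((q * K : ℕ) * (ph p l * 1) : ℤ) : ℚ) / (dn p * dn q : ℕ) = q * (K * ((ph p l : ℚ) / dn p / dn q)) := by
    push_cast
    ring
  rw [e1] at ha
  rw [e2] at hb
  split_ifs
  · have e3 : (K : ℚ) * ((ph p l : ℚ) / dn p * (((2 - (q : ℤ) : ℤ) : ℚ) / dn q)) =
        2 * (K * ((ph p l : ℚ) / dn p / dn q)) - q * (K * ((ph p l : ℚ) / dn p / dn q)) := by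
      push_cast
      ring
    rw [e3, abs_le]
    push_cast
    constructor <;> linarith [ha.1, ha.2, hb.1, hb.2]
  · have e3 : (K : ℚ) * ((ph p l : ℚ) / dn p * (((2 : ℤ) : ℚ) / dn q)) = 2 * (K * ((ph p l : ℚ) / dn p / dn q)) := by
      push_cast
      ring
    rw [e3, abs_le]
    push_cast
    constructor <;> linarith [ha.1, ha.2]

theorem val_congr {p q l l' : ℕ} (hp : Adm p) (hq : Adm q) (k d : ℕ) (h1 : l % p = l' % p) (h2 : l % q = l' % q) :
    val k p q d l = val k p q d l' := by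
  unfold val
  rw [ph_congr hp h1, ph_congr hq h2]

theorem adm_1 : Adm 1 := Or.inl rfl

theorem adm_7 : Adm 7 := Or.inr (Or.inl rfl)

theorem adm_11 : Adm 11 := Or.inr (Or.inr (Or.inl rfl))

theorem dP_congr {p q l l' : ℕ} (hp : Adm p) (K : ℕ) (h1 : l % p = l' % p) (h2 : l % q = l' % q) :
    dP K (p, q) l = dP K (p, q) l' := by
  unfold dP cut
  rw [val_congr hp adm_1 _ _ h1 (by omega), val_congr hp adm_1 (Nat.mul q K) _ h1 (by omega), h2]

/-- the three dense components -/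
def s3 (K l : ℕ) : ℤ := val K 7 11 2052 l + (val K 11 1 57 l + (val K 7 1 36 l + 0))

/-- the sum of all components -/
def sM (K : ℕ) (l : List (ℕ × ℕ)) (L : ℕ) : ℤ := (l.map fun x => dP K x L).sum + s3 K L

/-- the facts on a pair of moduli -/
def PA (x : ℕ × ℕ) : Prop := (x.1 = 1 ∨ x.1 = 7 ∨ x.1 = 11 ∨ 13 ≤ x.1) ∧ 13 ≤ x.2 ∧ QQ % x.1 = 0 ∧ QQ % x.2 = 0

theorem PL_ok : ∀ x ∈ PL, PA x := by
  unfold PA
  decide +kernel

theorem lrel_cM {δ ι : ℕ} (h : δ * ι % QQ = 1) (K : ℕ) : LRel δ (cM K δ ι) (sM K PL) := by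
  have h1 : δ * ι ≡ 1 [MOD QQ] := by
    unfold Nat.ModEq
    rw [h]
    decide +kernel
  unfold cM
  have hl := PL_ok
  generalize PL = l at hl
  induction l with
  | nil =>
    have := (((lrel_nil δ).cons (c := dense δ 7 (val K 7 1 36))
      (rel_dense δ 7 _ fun L => val_congr adm_7 adm_1 _ _ (by omega) (by omega))).cons (c := dense δ 11 (val K 11 1 57))
      (rel_dense δ 11 _ fun L => val_congr adm_11 adm_1 _ _ (by omega) (by omega))).cons
      (c := dense δ 77 (val K 7 11 2052))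
      (rel_dense δ 77 _ fun L => val_congr adm_7 adm_11 _ _ (by omega) (by omega))
    convert this using 2
    simp [sM, s3]
  | cons x t ih =>
    obtain ⟨p, q⟩ := x
    obtain ⟨hp, hq, -, h4⟩ := hl (p, q) List.mem_cons_self
    have := (ih fun y hy => hl y (List.mem_cons_of_mem _ hy)).cons
      (c := pair δ ι p q (val (Nat.mul 2 K) p 1 (Nat.mul (dn p) (dn q))) (val (Nat.mul q K) p 1 (Nat.mul (dn p) (dn q))))
      (rel_pair (h1.of_dvd (Nat.dvd_of_mod_eq_zero h4)) (by simp only at hq; omega) _ _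
        (fun L => val_congr hp adm_1 _ _ (Nat.add_mul_mod_self_right _ _ _) (by omega))
        (fun L => val_congr hp adm_1 _ _
          (by rw [show δ * (p * q) = δ * q * p by ring]; exact Nat.add_mul_mod_self_right _ _ _) (by omega)))
    convert this using 2 with L
    simp only [sM, List.map_cons, List.sum_cons, dP]
    ring

theorem sum_congr_PL (K : ℕ) {l l' : ℕ} (h : l ≡ l' [MOD QQ]) (t : List (ℕ × ℕ)) (ht : ∀ x ∈ t, PA x) :
    (t.map fun x => dP K x l).sum = (t.map fun x => dP K x l').sum := by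
  congr 1
  refine List.map_congr_left fun x hx => ?_
  obtain ⟨hp, -, h3, h4⟩ := ht x hx
  exact dP_congr hp K (h.of_dvd (Nat.dvd_of_mod_eq_zero h3)) (h.of_dvd (Nat.dvd_of_mod_eq_zero h4))

theorem sum_err (K l : ℕ) (t : List (ℕ × ℕ)) (ht : ∀ x ∈ t, PA x) :
    |(((t.map fun x => dP K x l).sum : ℤ) : ℚ) - K * (t.map fun x => tmQ x.1 l * tmQ x.2 l).sum| ≤ t.length ∧
      |(t.map fun x => tmQ x.1 l * tmQ x.2 l).sum| ≤ t.length := by
  induction t with
  | nil => simp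
  | cons x t ih =>
    obtain ⟨p, q⟩ := x
    obtain ⟨hp, hq, -, -⟩ := ht (p, q) List.mem_cons_self
    obtain ⟨i1, i2⟩ := ih fun y hy => ht y (List.mem_cons_of_mem _ hy)
    have h1 := dP_err hp hq K l
    have h2 : |tmQ p l * tmQ q l| ≤ 1 := by
      rw [abs_mul]
      exact mul_le_one₀ (abs_tm_le hp l) (abs_nonneg _) (abs_tm_le (Or.inr (Or.inr (Or.inr hq))) l)
    simp only [List.map_cons, List.sum_cons, List.length_cons]
    push_cast at i1 ⊢
    rw [abs_le] at *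
    rw [abs_le]
    refine ⟨⟨?_, ?_⟩, ?_, ?_⟩ <;> linarith [h1.1, h1.2, h2.1, h2.2, i1.1, i1.2, i2.1, i2.2]

theorem rhoQ_eq (l : ℕ) : rhoQ l = 1 + ((PL.map fun x => tmQ x.1 l * tmQ x.2 l).sum +
    (tmQ 7 l * tmQ 11 l + (tmQ 11 l * tmQ 1 l + tmQ 7 l * tmQ 1 l))) := by
  simp only [rhoQ, QP, PL, List.map_cons, List.map_nil, List.sum_cons, List.sum_nil, List.prod_cons, List.prod_nil,
    tmQ, Nat.reduceEqDiff, if_true, if_false]
  ring

theorem _root_.Cfsg.Agent.Depth.L.boxTab : BoxTab := by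
  intro K
  have hlen : PL.length = 66 := rfl
  have key : ∀ l, |((K + sM K PL l : ℤ) : ℚ) - K * rhoQ l| ≤ 69 ∧ |rhoQ l| ≤ 70 := by
    intro l
    obtain ⟨h1, h2⟩ := sum_err K l PL PL_ok
    have a1 := val_err adm_7 adm_11 K l (d := 2052) rfl
    have a2 := val_err adm_11 adm_1 K l (d := 57) rfl
    have a3 := val_err adm_7 adm_1 K l (d := 36) rfl
    have hb : ∀ {p q : ℕ}, Adm p → Adm q → |tmQ p l * tmQ q l| ≤ 1 := fun hp hq => by
      rw [abs_mul]
      exact mul_le_one₀ (abs_tm_le hp l) (abs_nonneg _) (abs_tm_le hq l)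
    have b1 := hb adm_7 adm_11
    have b2 := hb adm_11 adm_1
    have b3 := hb adm_7 adm_1
    rw [hlen] at h1 h2
    rw [rhoQ_eq, sM, s3]
    generalize (PL.map fun x => dP K x l).sum = u at h1 ⊢
    generalize (PL.map fun x => tmQ x.1 l * tmQ x.2 l).sum = v at h1 h2 ⊢
    push_cast at h1 h2 ⊢
    rw [abs_le] at *
    rw [abs_le]
    refine ⟨⟨?_, ?_⟩, ?_, ?_⟩ <;>
      linarith [h1.1, h1.2, h2.1, h2.2, a1.1, a1.2, a2.1, a2.2, a3.1, a3.2, b1.1, b1.2, b2.1, b2.2, b3.1, b3.2]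
  refine ⟨fun l => K + sM K PL l, fun l l' h => ?_, fun l => ?_, fun l => ?_, fun δ ι off l0 n x α β α' β' h hx ok => ?_⟩
  · show K + sM K PL l = K + sM K PL l'
    have h7 : l % 7 = l' % 7 := h.of_dvd QQ_7
    have h11 : l % 11 = l' % 11 := h.of_dvd QQ_11
    rw [sM, sM, sum_congr_PL K h PL PL_ok, s3, s3, val_congr adm_7 adm_11 _ _ h7 h11,
      val_congr adm_11 adm_1 _ _ h11 (by omega), val_congr adm_7 adm_1 _ _ h7 (by omega)]
  · exact_mod_cast (key l).1
  · obtain ⟨h1, h2⟩ := key l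
    have h3 : |((K + sM K PL l : ℤ) : ℚ)| ≤ 70 * K + 69 := by
      have hK : (0 : ℚ) ≤ K := Nat.cast_nonneg K
      rw [abs_le] at *
      constructor <;> nlinarith [h1.1, h1.2, h2.1, h2.2]
    exact_mod_cast h3
  · exact (lrel_cM h K).tab_eq _ off l0 n x α β α' β' hx ok

end Cfsg.Agent.Depth.L.TB
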