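import Cfsg.Agent.Depth.L.Asm
import Cfsg.Agent.Depth.L.Tab
import Cfsg.Agent.Depth.L.R47

/-! Depth L: the runs of the window 0 in the class 47 (generated). -/

set_option autoImplicit false
set_option Elab.async false

namespace Cfsg.Agent.Depth.L

theorem n47s0a : runP S47 R47 (pA 47 0 16942672
    ⟨0, 10408485, 51908712180838, 684535, 8192, 68108123493148, 6886486384847, 357914558559, 40, 288, 295⟩) = true := by
  decide +kernel

theorem n47s0b : runP S47 R47 (pB 47 0 16942672
    ⟨57821100141785, 477046, 58316437296254, 357745, 8192, 121673598154825, 22516959090754, 4458329743072, 76, 1015, 401⟩) = true := by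
  decide +kernel

theorem n47s0c : runP S47 R47 (pC 47 0 16942672
    ⟨61395346236915, 292521, 104226910739261, -12020456, 8192, 75950489948112, 8659564904470, 448799798685, 43, 322, 304⟩) = true := by
  decide +kernel

theorem n47s0 : ∃ lam : ℕ → ℝ, LFacts 47 0 0.001 (n8T 0 / 10 ^ 22) (n2T 0 / 10 ^ 9) lam :=
  win boxTab boxTabW sd47 n47s0a n47s0b n47s0c (by decide +kernel) (by norm_num [winOK, t8, b8, Tw, Yw, nw, kk, n8T, n2T])

end Cfsg.Agent.Depth.L
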