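import Cfsg.Agent.Depth.L.Asm
import Cfsg.Agent.Depth.L.Tab
import Cfsg.Agent.Depth.L.R47
import Cfsg.Agent.Depth.L.N47s0

/-! Depth L: the runs of the window 2 in the class 47 (generated). -/

set_option autoImplicit false
set_option Elab.async false

namespace Cfsg.Agent.Depth.L

theorem n47s2a : runP S47 R47 (pA 47 2 20164166
    ⟨0, 12164259, 50953358600834, 807491, 8192, 56243564115016, 4612744529125, 132503092149, 36, 191, 295⟩) = true := by
  decide +kernel

theorem n47s2b : runP S47 R47 (pB 47 2 20164166
    ⟨56813491385258, 562830, 57304343341799, 422131, 8192, 100422160049051, 15071718345574, 1589873553030, 67, 661, 400⟩) = true := by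
  decide +kernel

theorem n47s2c : runP S47 R47 (pC 47 2 20164166
    ⟨60356959991428, 345197, 102480180677717, -14066032, 8192, 62802648211139, 5830335662271, 168300870506, 38, 215, 305⟩) = true := by
  decide +kernel

theorem n47s2 : ∃ lam : ℕ → ℝ, LFacts 47 2 0.001 (n8T 2 / 10 ^ 22) (n2T 2 / 10 ^ 9) lam :=
  win boxTab boxTabW sd47 n47s2a n47s2b n47s2c (by decide +kernel) (by norm_num [winOK, t8, b8, Tw, Yw, nw, kk, n8T, n2T])

end Cfsg.Agent.Depth.L
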