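import Cfsg.Agent.Depth.L.Asm
import Cfsg.Agent.Depth.L.Tab
import Cfsg.Agent.Depth.L.R47
import Cfsg.Agent.Depth.L.N47s2

/-! Depth L: the runs of the window 4 in the class 47 (generated). -/

set_option autoImplicit false
set_option Elab.async false

namespace Cfsg.Agent.Depth.L

theorem n47s4a : runP S47 R47 (pA 47 4 24061442
    ⟨0, 14247324, 49992574259801, 954847, 8192, 46285654632319, 3073095683934, 49990054875, 32, 128, 296⟩) = true := by
  decide +kernel

theorem n47s4b : runP S47 R47 (pB 47 4 24061442
    ⟨55799704555225, 665650, 56286004622572, 499313, 8192, 82747114284246, 10060892591426, 573074591265, 59, 434, 398⟩) = true := by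
  decide +kernel

theorem n47s4c : runP S47 R47 (pC 47 4 24061442
    ⟨59311928118098, 408352, 100722138672453, -16496435, 8192, 51618445484956, 3885850613270, 63707036924, 35, 145, 306⟩) = true := by
  decide +kernel

theorem n47s4 : ∃ lam : ℕ → ℝ, LFacts 47 4 0.001 (n8T 4 / 10 ^ 22) (n2T 4 / 10 ^ 9) lam :=
  win boxTab boxTabW sd47 n47s4a n47s4b n47s4c (by decide +kernel) (by norm_num [winOK, t8, b8, Tw, Yw, nw, kk, n8T, n2T])

end Cfsg.Agent.Depth.L
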