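import Cfsg.Agent.Depth.L.Asm
import Cfsg.Agent.Depth.L.Tab
import Cfsg.Agent.Depth.L.R47
import Cfsg.Agent.Depth.L.N47s4

/-! Depth L: the runs of the window 6 in the class 47 (generated). -/

set_option autoImplicit false
set_option Elab.async false

namespace Cfsg.Agent.Depth.L

theorem n47s6a : runP S47 R47 (pA 47 6 28633116
    ⟨0, 16643257, 49055696915201, 1126048, 8192, 38154160450333, 2058316233875, 19334373721, 29, 87, 296⟩) = true := by
  decide +kernel

theorem n47s6b : runP S47 R47 (pB 47 6 28633116
    ⟨54810604946368, 785141, 55292420772607, 589023, 8192, 68345292175147, 6757156522542, 219267695541, 53, 293, 397⟩) = true := by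
  decide +kernel

theorem n47s6c : runP S47 R47 (pC 47 6 28633116
    ⟨58292073713097, 481761, 99006319041439, -19295991, 8192, 42593035229120, 2615353292000, 25780615208, 31, 100, 307⟩) = true := by
  decide +kernel

theorem n47s6 : ∃ lam : ℕ → ℝ, LFacts 47 6 0.001 (n8T 6 / 10 ^ 22) (n2T 6 / 10 ^ 9) lam :=
  win boxTab boxTabW sd47 n47s6a n47s6b n47s6c (by decide +kernel) (by norm_num [winOK, t8, b8, Tw, Yw, nw, kk, n8T, n2T])

end Cfsg.Agent.Depth.L
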