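import Cfsg.Agent.Depth.L.Asm
import Cfsg.Agent.Depth.L.Tab
import Cfsg.Agent.Depth.L.R47

/-! Depth L: the runs of the window 1 in the class 47 (generated). -/

set_option autoImplicit false
set_option Elab.async false

namespace Cfsg.Agent.Depth.L

theorem n47s1a : runP S47 R47 (pA 47 1 18472978
    ⟨0, 11246744, 51433003957779, 743088, 8192, 61947910366514, 5642875385587, 216376422957, 38, 234, 295⟩) = true := by
  decide +kernel

theorem n47s1b : runP S47 R47 (pB 47 1 18472978
    ⟨57319443889961, 517894, 57812552826669, 388403, 8192, 110606322104010, 18450386221195, 2688596722188, 71, 823, 401⟩) = true := by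
  decide +kernel

theorem n47s1c : runP S47 R47 (pC 47 1 18472978
    ⟨60878400392288, 317603, 103357340011710, -12996715, 8192, 69111377917936, 7106349450137, 271222648103, 40, 261, 304⟩) = true := by
  decide +kernel

theorem n47s1 : ∃ lam : ℕ → ℝ, LFacts 47 1 0.001 (n8T 1 / 10 ^ 22) (n2T 1 / 10 ^ 9) lam :=
  win boxTab boxTabW sd47 n47s1a n47s1b n47s1c (by decide +kernel) (by norm_num [winOK, t8, b8, Tw, Yw, nw, kk, n8T, n2T])

end Cfsg.Agent.Depth.L
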