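import Cfsg.Agent.Depth.L.Asm
import Cfsg.Agent.Depth.L.Tab
import Cfsg.Agent.Depth.L.R47
import Cfsg.Agent.Depth.L.N47s1

/-! Depth L: the runs of the window 3 in the class 47 (generated). -/

set_option autoImplicit false
set_option Elab.async false

namespace Cfsg.Agent.Depth.L

theorem n47s3a : runP S47 R47 (pA 47 3 22025474
    ⟨0, 13164252, 50472151396303, 878042, 8192, 50978714419508, 3759559998232, 81865053055, 34, 157, 296⟩) = true := by
  decide +kernel

theorem n47s3b : runP S47 R47 (pB 47 3 22025474
    ⟨56305797613754, 612057, 56794374980009, 459082, 8192, 91158152034844, 12321016365398, 959658690635, 63, 537, 399⟩) = true := by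
  decide +kernel

theorem n47s3c : runP S47 R47 (pC 47 3 22025474
    ⟨59833654437993, 375431, 101599859756940, -15232314, 8192, 57008941440369, 4769947304671, 103284076152, 36, 176, 305⟩) = true := by
  decide +kernel

theorem n47s3 : ∃ lam : ℕ → ℝ, LFacts 47 3 0.001 (n8T 3 / 10 ^ 22) (n2T 3 / 10 ^ 9) lam :=
  win boxTab boxTabW sd47 n47s3a n47s3b n47s3c (by decide +kernel) (by norm_num [winOK, t8, b8, Tw, Yw, nw, kk, n8T, n2T])

end Cfsg.Agent.Depth.L
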