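import Cfsg.Agent.Depth.L.Asm
import Cfsg.Agent.Depth.L.Tab
import Cfsg.Agent.Depth.L.R47
import Cfsg.Agent.Depth.L.N47s3

/-! Depth L: the runs of the window 5 in the class 47 (generated). -/

set_option autoImplicit false
set_option Elab.async false

namespace Cfsg.Agent.Depth.L

theorem n47s5a : runP S47 R47 (pA 47 5 26268914
    ⟨0, 15410084, 49518729415367, 1037716, 8192, 41977244639646, 2509814374603, 30836831229, 31, 105, 296⟩) = true := by
  decide +kernel

theorem n47s5b : runP S47 R47 (pB 47 5 26268914
    ⟨55299509062319, 723484, 55783548650109, 542732, 8192, 75140487345017, 8233294494333, 349936271795, 56, 354, 398⟩) = true := by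
  decide +kernel

theorem n47s5c : runP S47 R47 (pC 47 5 26268914
    ⟨58796212288831, 443881, 99854501422720, -17854564, 8192, 46836070388538, 3180639823980, 39840967182, 33, 119, 306⟩) = true := by
  decide +kernel

theorem n47s5 : ∃ lam : ℕ → ℝ, LFacts 47 5 0.001 (n8T 5 / 10 ^ 22) (n2T 5 / 10 ^ 9) lam :=
  win boxTab boxTabW sd47 n47s5a n47s5b n47s5c (by decide +kernel) (by norm_num [winOK, t8, b8, Tw, Yw, nw, kk, n8T, n2T])

end Cfsg.Agent.Depth.L
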