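import Cfsg.Agent.Depth.L.Asm
import Cfsg.Agent.Depth.L.Tab
import Cfsg.Agent.Depth.L.R47
import Cfsg.Agent.Depth.L.N47s5

/-! Depth L: the runs of the window 7 in the class 47 (generated). -/

set_option autoImplicit false
set_option Elab.async false

namespace Cfsg.Agent.Depth.L

theorem n47s7a : runP S47 R47 (pA 47 7 31122952
    ⟨0, 17929516, 48609749511537, 1218642, 8192, 34689739324253, 1689937895763, 12015557427, 28, 71, 295⟩) = true := by
  decide +kernel

theorem n47s7b : runP S47 R47 (pB 47 7 31122952
    ⟨54339633314447, 849773, 54819302649091, 637553, 8192, 62325691589367, 5574369172595, 136264818143, 51, 241, 396⟩) = true := by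
  decide +kernel

theorem n47s7c : runP S47 R47 (pC 47 7 31122952
    ⟨57806357775743, 521477, 98189071350808, -20800586, 8192, 39048959506170, 2183439296113, 17095158139, 30, 85, 309⟩) = true := by
  decide +kernel

theorem n47s7 : ∃ lam : ℕ → ℝ, LFacts 47 7 0.001 (n8T 7 / 10 ^ 22) (n2T 7 / 10 ^ 9) lam :=
  win boxTab boxTabW sd47 n47s7a n47s7b n47s7c (by decide +kernel) (by norm_num [winOK, t8, b8, Tw, Yw, nw, kk, n8T, n2T])

end Cfsg.Agent.Depth.L
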