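import Cfsg.Agent.Depth.L.S59
import Cfsg.Agent.Depth.L.R59a
import Cfsg.Agent.Depth.L.R59b
import Cfsg.Agent.Depth.L.R59c
import Cfsg.Agent.Depth.L.R59d

/-! The certified data of the class `59`. -/

set_option autoImplicit false
set_option Elab.async false

namespace Cfsg.Agent.Depth.L

noncomputable def R59 : ℕ := (Nat.lor (Nat.lor R59d (Nat.shiftLeft R59c 6881280)) (Nat.shiftLeft (Nat.lor R59b (Nat.shiftLeft R59a 6881280)) 13762560))

theorem r59 : RV 27525120 S59 R59 :=
  (RV.join 27525120 (RV.join 13762560 r59a r59b (by decide)) (RV.join 13762560 r59c r59d (by decide)) (by decide))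

theorem sd59 : SD 59 S59 R59 := sd_of s59 r59 (by decide +kernel)

end Cfsg.Agent.Depth.L
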