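import Cfsg.Agent.Depth.L.Asm
import Cfsg.Agent.Depth.L.Tab
import Cfsg.Agent.Depth.L.R59

/-! Depth L: the runs of the window 1 in the class 59 (generated). -/

set_option autoImplicit false
set_option Elab.async false

namespace Cfsg.Agent.Depth.L

theorem n59s1a : runP S59 R59 (pA 59 1 18472978
    ⟨0, 11246744, 51433004224265, 743088, 8192, 61713178058355, 5612837292974, 214601744267, 38, 233, 295⟩) = true := by
  decide +kernel

theorem n59s1b : runP S59 R59 (pB 59 1 18472978
    ⟨57319444011321, 517894, 57812552933406, 388403, 8192, 110660015884397, 18475693259710, 2657663526849, 71, 818, 400⟩) = true := by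
  decide +kernel

theorem n59s1c : runP S59 R59 (pC 59 1 18472978
    ⟨60878400460952, 317603, 103357340107405, -12996715, 8192, 69068296846022, 7103187254999, 276537403939, 41, 264, 305⟩) = true := by
  decide +kernel

theorem n59s1 : ∃ lam : ℕ → ℝ, LFacts 59 1 0.001 (n8T 1 / 10 ^ 22) (n2T 1 / 10 ^ 9) lam :=
  win boxTab boxTabW sd59 n59s1a n59s1b n59s1c (by decide +kernel) (by norm_num [winOK, t8, b8, Tw, Yw, nw, kk, n8T, n2T])

end Cfsg.Agent.Depth.L
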