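import Cfsg.Agent.Depth.L.Asm
import Cfsg.Agent.Depth.L.Tab
import Cfsg.Agent.Depth.L.R59
import Cfsg.Agent.Depth.L.N59s1

/-! Depth L: the runs of the window 3 in the class 59 (generated). -/

set_option autoImplicit false
set_option Elab.async false

namespace Cfsg.Agent.Depth.L

theorem n59s3a : runP S59 R59 (pA 59 3 22025474
    ⟨0, 13164252, 50472151711169, 878042, 8192, 50881230086381, 3750341502050, 78954284700, 34, 154, 295⟩) = true := by
  decide +kernel

theorem n59s3b : runP S59 R59 (pB 59 3 22025474
    ⟨56305797757172, 612057, 56794375106174, 459082, 8192, 91067003321193, 12299884395524, 952002039756, 63, 535, 399⟩) = true := by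
  decide +kernel

theorem n59s3c : runP S59 R59 (pC 59 3 22025474
    ⟨59833654519155, 375431, 101599859870116, -15232314, 8192, 57001932344742, 4769691992615, 105207412791, 37, 178, 306⟩) = true := by
  decide +kernel

theorem n59s3 : ∃ lam : ℕ → ℝ, LFacts 59 3 0.001 (n8T 3 / 10 ^ 22) (n2T 3 / 10 ^ 9) lam :=
  win boxTab boxTabW sd59 n59s3a n59s3b n59s3c (by decide +kernel) (by norm_num [winOK, t8, b8, Tw, Yw, nw, kk, n8T, n2T])

end Cfsg.Agent.Depth.L
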