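import Cfsg.Agent.Depth.L.Asm
import Cfsg.Agent.Depth.L.Tab
import Cfsg.Agent.Depth.L.R59
import Cfsg.Agent.Depth.L.N59s3

/-! Depth L: the runs of the window 5 in the class 59 (generated). -/

set_option autoImplicit false
set_option Elab.async false

namespace Cfsg.Agent.Depth.L

theorem n59s5a : runP S59 R59 (pA 59 5 26268914
    ⟨0, 15410084, 49518729787357, 1037716, 8192, 41886035868686, 2501086572665, 29259538400, 30, 102, 294⟩) = true := by
  decide +kernel

theorem n59s5b : runP S59 R59 (pB 59 5 26268914
    ⟨55299509231834, 723484, 55783548799192, 542732, 8192, 74938083717063, 8193691816885, 354474612689, 56, 356, 399⟩) = true := by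
  decide +kernel

theorem n59s5c : runP S59 R59 (pC 59 5 26268914
    ⟨58796212384790, 443881, 99854501556506, -17854564, 8192, 46952267737279, 3195884283647, 41410776887, 33, 122, 307⟩) = true := by
  decide +kernel

theorem n59s5 : ∃ lam : ℕ → ℝ, LFacts 59 5 0.001 (n8T 5 / 10 ^ 22) (n2T 5 / 10 ^ 9) lam :=
  win boxTab boxTabW sd59 n59s5a n59s5b n59s5c (by decide +kernel) (by norm_num [winOK, t8, b8, Tw, Yw, nw, kk, n8T, n2T])

end Cfsg.Agent.Depth.L
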