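import Cfsg.Agent.Depth.L.Asm
import Cfsg.Agent.Depth.L.Tab
import Cfsg.Agent.Depth.L.R59
import Cfsg.Agent.Depth.L.N59s5

/-! Depth L: the runs of the window 7 in the class 59 (generated). -/

set_option autoImplicit false
set_option Elab.async false

namespace Cfsg.Agent.Depth.L

theorem n59s7a : runP S59 R59 (pA 59 7 31122952
    ⟨0, 17929516, 48609749948329, 1218642, 8192, 34760000398270, 1697005112093, 11482124712, 27, 70, 295⟩) = true := by
  decide +kernel

theorem n59s7b : runP S59 R59 (pB 59 7 31122952
    ⟨54339633513539, 849773, 54819302824205, 637553, 8192, 62005919742855, 5534955556387, 134962884988, 50, 239, 396⟩) = true := by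
  decide +kernel

theorem n59s7c : runP S59 R59 (pC 59 7 31122952
    ⟨57806357888470, 521477, 98189071507981, -20800586, 8192, 39004426626730, 2181526841254, 16783897668, 30, 84, 309⟩) = true := by
  decide +kernel

theorem n59s7 : ∃ lam : ℕ → ℝ, LFacts 59 7 0.001 (n8T 7 / 10 ^ 22) (n2T 7 / 10 ^ 9) lam :=
  win boxTab boxTabW sd59 n59s7a n59s7b n59s7c (by decide +kernel) (by norm_num [winOK, t8, b8, Tw, Yw, nw, kk, n8T, n2T])

end Cfsg.Agent.Depth.L
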