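import Cfsg.Agent.Depth.L.N59s6
import Cfsg.Agent.Depth.L.N59s7
import Cfsg.Agent.Depth.L.N47s6
import Cfsg.Agent.Depth.L.N47s7

/-! Depth L: the safe prime data (helper59). -/

set_option autoImplicit false

namespace Cfsg.Agent.Depth.L

theorem lBox59 : LBox 59 := by
  intro s hs
  interval_cases s
  exacts [n59s0, n59s1, n59s2, n59s3, n59s4, n59s5, n59s6, n59s7]

theorem lBox47 : LBox 47 := by
  intro s hs
  interval_cases s
  exacts [n47s0, n47s1, n47s2, n47s3, n47s4, n47s5, n47s6, n47s7]

end Cfsg.Agent.Depth.L
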