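import Cfsg.Agent.Depth.L.Asm
import Cfsg.Agent.Depth.L.Tab
import Cfsg.Agent.Depth.L.R59

/-! Depth L: the runs of the window 0 in the class 59 (generated). -/

set_option autoImplicit false
set_option Elab.async false

namespace Cfsg.Agent.Depth.L

theorem n59s0a : runP S59 R59 (pA 59 0 16942672
    ⟨0, 10408485, 51908712426375, 684535, 8192, 67825382800346, 6843686193716, 355360484994, 40, 287, 295⟩) = true := by
  decide +kernel

theorem n59s0b : runP S59 R59 (pB 59 0 16942672
    ⟨57821100253579, 477046, 58316437394577, 357745, 8192, 121832254452049, 22580621189761, 4442304834426, 76, 1013, 401⟩) = true := by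
  decide +kernel

theorem n59s0c : runP S59 R59 (pC 59 0 16942672
    ⟨61395346300151, 292521, 104226910827484, -12020456, 8192, 75903576431663, 8646365067101, 458282726780, 43, 325, 304⟩) = true := by
  decide +kernel

theorem n59s0 : ∃ lam : ℕ → ℝ, LFacts 59 0 0.001 (n8T 0 / 10 ^ 22) (n2T 0 / 10 ^ 9) lam :=
  win boxTab boxTabW sd59 n59s0a n59s0b n59s0c (by decide +kernel) (by norm_num [winOK, t8, b8, Tw, Yw, nw, kk, n8T, n2T])

end Cfsg.Agent.Depth.L
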