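import Cfsg.Agent.Depth.L.Asm
import Cfsg.Agent.Depth.L.Tab
import Cfsg.Agent.Depth.L.R59
import Cfsg.Agent.Depth.L.N59s0

/-! Depth L: the runs of the window 2 in the class 59 (generated). -/

set_option autoImplicit false
set_option Elab.async false

namespace Cfsg.Agent.Depth.L

theorem n59s2a : runP S59 R59 (pA 59 2 20164166
    ⟨0, 12164259, 50953358890423, 807491, 8192, 56012174469088, 4586194981455, 129065987465, 36, 188, 295⟩) = true := by
  decide +kernel

theorem n59s2b : runP S59 R59 (pB 59 2 20164166
    ⟨56813491517144, 562830, 57304343457764, 422131, 8192, 100373438231395, 15063935810237, 1587685082552, 67, 661, 400⟩) = true := by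
  decide +kernel

theorem n59s2c : runP S59 R59 (pC 59 2 20164166
    ⟨60356960066055, 345197, 102480180781754, -14066032, 8192, 62858733529579, 5840463438801, 169752785169, 38, 216, 305⟩) = true := by
  decide +kernel

theorem n59s2 : ∃ lam : ℕ → ℝ, LFacts 59 2 0.001 (n8T 2 / 10 ^ 22) (n2T 2 / 10 ^ 9) lam :=
  win boxTab boxTabW sd59 n59s2a n59s2b n59s2c (by decide +kernel) (by norm_num [winOK, t8, b8, Tw, Yw, nw, kk, n8T, n2T])

end Cfsg.Agent.Depth.L
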