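import Cfsg.Agent.Depth.L.Asm
import Cfsg.Agent.Depth.L.Tab
import Cfsg.Agent.Depth.L.R59
import Cfsg.Agent.Depth.L.N59s2

/-! Depth L: the runs of the window 4 in the class 59 (generated). -/

set_option autoImplicit false
set_option Elab.async false

namespace Cfsg.Agent.Depth.L

theorem n59s4a : runP S59 R59 (pA 59 4 24061442
    ⟨0, 14247324, 49992574602134, 954847, 8192, 46166138781997, 3063042046928, 47908960020, 32, 125, 295⟩) = true := by
  decide +kernel

theorem n59s4b : runP S59 R59 (pB 59 4 24061442
    ⟨55799704711194, 665650, 56286004759743, 499313, 8192, 82504421102942, 10006554857108, 561088653303, 59, 429, 398⟩) = true := by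
  decide +kernel

theorem n59s4c : runP S59 R59 (pC 59 4 24061442
    ⟨59311928206374, 408352, 100722138795543, -16496435, 8192, 51779981719767, 3906197541256, 64636908200, 35, 146, 307⟩) = true := by
  decide +kernel

theorem n59s4 : ∃ lam : ℕ → ℝ, LFacts 59 4 0.001 (n8T 4 / 10 ^ 22) (n2T 4 / 10 ^ 9) lam :=
  win boxTab boxTabW sd59 n59s4a n59s4b n59s4c (by decide +kernel) (by norm_num [winOK, t8, b8, Tw, Yw, nw, kk, n8T, n2T])

end Cfsg.Agent.Depth.L
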