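import Cfsg.Agent.Depth.L.Asm
import Cfsg.Agent.Depth.L.Tab
import Cfsg.Agent.Depth.L.R59
import Cfsg.Agent.Depth.L.N59s4

/-! Depth L: the runs of the window 6 in the class 59 (generated). -/

set_option autoImplicit false
set_option Elab.async false

namespace Cfsg.Agent.Depth.L

theorem n59s6a : runP S59 R59 (pA 59 6 28633116
    ⟨0, 16643257, 49055697318861, 1126048, 8192, 38081016480288, 2051470719853, 17957836150, 29, 84, 295⟩) = true := by
  decide +kernel

theorem n59s6b : runP S59 R59 (pB 59 6 28633116
    ⟨54810605130324, 785141, 55292420934407, 589023, 8192, 68010347756778, 6696070406386, 210067211399, 53, 286, 396⟩) = true := by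
  decide +kernel

theorem n59s6c : runP S59 R59 (pC 59 6 28633116
    ⟨58292073817240, 481761, 99006319186664, -19295991, 8192, 42818331727266, 2640025224048, 26123920972, 32, 101, 309⟩) = true := by
  decide +kernel

theorem n59s6 : ∃ lam : ℕ → ℝ, LFacts 59 6 0.001 (n8T 6 / 10 ^ 22) (n2T 6 / 10 ^ 9) lam :=
  win boxTab boxTabW sd59 n59s6a n59s6b n59s6c (by decide +kernel) (by norm_num [winOK, t8, b8, Tw, Yw, nw, kk, n8T, n2T])

end Cfsg.Agent.Depth.L
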