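import Cfsg.Agent.Depth.L.Lev
import Cfsg.Agent.Depth.L.Ana

/-!
# Depth L: a successful run gives the facts of a piece (helper59)
-/

set_option autoImplicit false

namespace Cfsg.Agent.Depth.L

open Finset Polynomial

/-- the weight read from a lane -/
def lamf (b : Bool) (z : ℤ) : ℤ := if b then z / 137438953472 % 65536 else 0

theorem lamf_bd (b : Bool) (z : ℤ) : 0 ≤ lamf b z ∧ lamf b z < 65536 := by
  unfold lamf
  split_ifs <;> omega

theorem lam_eq {n F bits : ℕ} {z : ℕ → ℤ} {b : ℕ → Bool} (hF : (F : ℤ) = enc n z) (hz : ∀ j < n, 0 ≤ z j ∧ z j < 2 ^ 56)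
    (hb : bits = ∑ j ∈ range n, (if b j then 1 else 0) * 2 ^ (56 * j)) :
    ((Nat.land F (Nat.mul bits 9007061815787520) : ℕ) : ℤ) = 2 ^ 37 * enc n fun j => lamf (b j) (z j) := by
  have h1 := (decode' (R := 0) (by rw [hF, mul_zero, add_zero]) hz).1
  have h2 : bits * 9007061815787520 = ∑ j ∈ range n, (if b j then 9007061815787520 else 0) * 2 ^ (56 * j) := by
    rw [hb, sum_mul]
    exact sum_congr rfl fun j _ => by split_ifs <;> ring
  change ((F &&& bits * 9007061815787520 : ℕ) : ℤ) = _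
  rw [h2, land_lanes F n fun j _ => by split_ifs <;> norm_num, enc_cast, ← enc_mul]
  refine enc_congr fun j hj => ?_
  rw [lamf, h1 j hj]
  split_ifs
  · rw [show 9007061815787520 = (2 ^ 16 - 1) * 2 ^ 37 by norm_num, and_mask]
    omega
  · simp

/-- the correction at the two ends -/
def kap (N κ j : ℕ) : ℤ := (if j = 0 then (κ : ℤ) else 0) + if j = N then (κ : ℤ) else 0

theorem og_cast (N κ : ℕ) : (og (ones (N + 1)) N κ : ℤ) = 2 ^ 37 * enc (N + 1) fun j => 8192 + kap N κ j := by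
  have h : ∀ i < N + 1, (enc (N + 1) fun j => if j = i then (κ : ℤ) else 0) = κ * 2 ^ (56 * i) := fun i hi => by
    simp only [enc, ite_mul, zero_mul, sum_ite_eq', mem_range, if_pos hi]
  have h1 := ones_cast (N + 1) 8192
  simp only [og, Nat.add_eq, Nat.mul_eq, Nat.cast_add, shlZ, kap, enc_add, h 0 (by omega), h N (by omega)]
  push_cast at h1
  rw [← h1, pow_add]
  ring

theorem gv_eq {N κ F L : ℕ} {z Λ : ℕ → ℤ} (hF : (F : ℤ) = enc (N + 1) z) (hz : ∀ j < N + 1, |z j| ≤ 2 ^ 55)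
    (hL : (L : ℤ) = 2 ^ 37 * enc (N + 1) Λ) (k1 : Nat.beq (Nat.land F (Nat.mul (ones (N + 1)) 69805794224242688)) 0 = true)
    (k2 : Nat.ble (Nat.land F (Nat.mul (ones (N + 1)) 2251662374731776)) (Nat.add L (og (ones (N + 1)) N κ)) = true) :
    (∀ j < N + 1, 0 ≤ z j ∧ z j < 2 ^ 51) ∧
      ((Nat.shiftRight (Nat.sub (Nat.add L (og (ones (N + 1)) N κ)) (Nat.land F (Nat.mul (ones (N + 1)) 2251662374731776))) 37 : ℕ) : ℤ) =
        enc (N + 1) fun j => Λ j + (8192 + kap N κ j) - z j / 2 ^ 37 := by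
  obtain ⟨h1, h2, -⟩ := chunkG 37 14 5 (lm := 2251662374731776) (hm := 69805794224242688) (R := 0) rfl (by norm_num)
    (by norm_num) (by rw [hF, mul_zero, add_zero]) (fun j hj => by have := abs_le.1 (hz j hj); omega) (Nat.eq_of_beq_eq_true k1)
  refine ⟨h1, shift_cast ?_⟩
  rw [Nat.sub_eq, Nat.cast_sub (Nat.le_of_ble_eq_true k2), Nat.add_eq, Nat.cast_add, hL, og_cast, enc_sub, enc_add _ Λ,
    mul_sub, mul_add]
  exact congrArg _ h2

theorem seg_rev {N x j : ℕ} (hx : x ≤ N + 1) (hj : j < N + 1) (α β α' β' : ℤ) :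
    seg (N + 1 - x) (α' + β' * N) (-β') (α + β * N) (-β) j = seg x α β α' β' (N - j) := by
  unfold seg
  rw [Nat.cast_sub (by omega)]
  by_cases h : j < N + 1 - x
  · rw [if_pos h, if_neg (by omega)]
    ring
  · rw [if_neg h, if_pos (by omega)]
    ring

theorem arg_rev {N j : ℕ} (hj : j < N + 1) (lo c : ℕ) :
    60 * (lo + N) + c + (QQ - 60) * j ≡ 60 * lo + c + 60 * (N - j) [MOD QQ] := by
  obtain ⟨Q, hQ⟩ : ∃ Q, QQ = Q + 60 := ⟨QQ - 60, by decide +kernel⟩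
  obtain ⟨k, rfl⟩ : ∃ k, N = k + j := ⟨N - j, by omega⟩
  rw [show 60 * (lo + (k + j)) + c + (QQ - 60) * j = 60 * lo + c + 60 * (k + j - j) + QQ * j by
    rw [hQ, Nat.add_sub_cancel, Nat.add_sub_cancel]; ring]
  exact Nat.add_mul_mod_self_left _ _ _

theorem seg_le {n x j : ℕ} {a b a' b' : ℤ} (hj : j < n) (h : a.natAbs + b.natAbs * n ≤ 2 ^ 48)
    (h' : a'.natAbs + b'.natAbs * n ≤ 2 ^ 48) : |seg x a b a' b' j| ≤ 2 ^ 48 := by
  have v : ∀ {a b : ℤ}, a.natAbs + b.natAbs * n ≤ 2 ^ 48 → |a + b * j| ≤ 2 ^ 48 := by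
    intro a b h
    have h1 : |a| + |b| * n ≤ 2 ^ 48 := by zify at h; exact h
    have h2 : |b| * j ≤ |b| * n := mul_le_mul_of_nonneg_left (by exact_mod_cast hj.le) (abs_nonneg _)
    have h3 := abs_add_le a (b * j)
    rw [abs_mul, Nat.abs_cast] at h3
    omega
  unfold seg
  split_ifs
  exacts [v h, v h']

/-- numerical side conditions -/
def parOK (P : Par) (Y : ℕ) : Prop :=
  0 < P.N ∧ P.N < 8800000 ∧ P.x ≤ P.N + 1 ∧ P.lo + (P.N + 1) ≤ 27525120 ∧ P.κ ≤ 16384 ∧ Y * (70 * P.K + 69) ≤ 2 ^ 54 ∧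
    P.a.natAbs + P.b.natAbs * (P.N + 1) ≤ 2 ^ 48 ∧ P.a'.natAbs + P.b'.natAbs * (P.N + 1) ≤ 2 ^ 48

instance (P : Par) (Y : ℕ) : Decidable (parOK P Y) := by unfold parOK; infer_instance

/-- the run on the certified data -/
def runP (S R : ℕ) (P : Par) : Bool :=
  run P (ones (Nat.succ P.N)) (lanesF (ones (Nat.succ P.N)) S P.lo (Nat.succ P.N))
    (lanesR (ones (Nat.succ P.N)) R P.lo (Nat.succ P.N))

/-- the bound for the eighth moment -/
noncomputable def b8 (N bc bt : ℕ) (m m' : ℝ) : ℝ :=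
  (1 + 1 / m) ^ 3 * 2 ^ 100 * ((bc : ℝ) ^ 2 + 2 * ((1 + 1 / m') * 2 ^ 50 * bt + 2 * N * ((1 + m') * 2 ^ 48))) +
    (1 + m) ^ 3 * (2 * N + 1) ^ 3 * 2 ^ 96

theorem run_sound (hT : BoxTab) (hW : BoxTabW) {S R Y : ℕ} {P : Par} (hS : SD P.c1 S R) (hP : parOK P Y) {t : ℕ → ℕ}
    (ht : ∀ j < P.N + 1, (t j : ℤ) = seg P.x P.α P.β P.α' P.β' j ∧ t j ≤ Y) {m m' : ℝ} (hm : 0 < m) (hm' : 0 < m')
    (h : runP S R P = true) :
    PF P.c1 P.lo (P.N + 1) P.K t ((P.N + 1) * (1 / 2 + 69 * Y / 2 ^ 37) + 2 * P.κ) P.b2 (b8 P.N P.bc P.bt m m') := by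
  obtain ⟨c1, lo, N, K, x, α, β, α', β', a, b, a', b', κ, b2, bc, bt⟩ := P
  obtain ⟨p1, p2, p3, p4, p5, p6, p7, p8⟩ := hP
  obtain ⟨ρ, r1, r2, r3, r4⟩ := hT K
  obtain ⟨ω, w1, w2, w3⟩ := hW
  simp only [runP, run, gOK, gv, lamS, tM, Par.fw, Par.bw, Bool.and_eq_true, Nat.succ_eq_add_one] at h
  obtain ⟨⟨f1, f2, f3, f4⟩, ⟨g1, g2, g3, g4⟩, k2, k1⟩ := h
  dsimp only at *
  have tf := r4 _ _ _ _ _ _ _ _ _ _ (by decide +kernel) p3 f1
  have tr := (r4 _ _ _ _ _ _ _ _ _ _ (by decide +kernel) (Nat.sub_le _ _) g1).trans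
    (enc_congr fun j hj => by rw [seg_rev p3 hj, r1 _ _ (arg_rev hj lo c1)])
  have wf := w3 _ _ _ _ _ _ _ _ _ p3 f2
  have wr := (w3 _ _ _ _ _ _ _ _ _ (Nat.sub_le _ _) g2).trans
    (enc_congr fun j hj => by rw [seg_rev p3 hj, w1 _ _ (arg_rev hj lo c1)])
  have zw : ∀ j < N + 1, 0 ≤ 36028797018963968 + seg x a b a' b' j * ω (60 * lo + c1 + 60 * j) ∧
      36028797018963968 + seg x a b a' b' j * ω (60 * lo + c1 + 60 * j) < 2 ^ 56 := fun j hj => by
    have h1 := mul_le_mul (seg_le (x := x) hj p7 p8) (w2 (60 * lo + c1 + 60 * j)) (abs_nonneg _) (by norm_num)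
    rw [← abs_mul, abs_le] at h1
    omega
  have zm : ∀ j < N + 1, |1125968626319360 + seg x α β α' β' j * ρ (60 * lo + c1 + 60 * j)| ≤ 2 ^ 55 := fun j hj => by
    have h0 : |seg x α β α' β' j| ≤ Y := by
      rw [← (ht j hj).1, Nat.abs_cast]
      exact_mod_cast (ht j hj).2
    have h1 := mul_le_mul h0 (r3 (60 * lo + c1 + 60 * j)) (abs_nonneg _) (by positivity)
    have h2 : (Y : ℤ) * (70 * K + 69) ≤ 2 ^ 54 := by exact_mod_cast p6
    rw [← abs_mul, abs_le] at h1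
    rw [abs_le]
    omega
  have lf := lam_eq wf zw (hS.lanesF_eq (ones_eq _) p4)
  have lr := lam_eq wr (fun j _ => zw (N - j) (by omega)) (hS.lanesR_eq (ones_eq _) p4)
  obtain ⟨z1, gf⟩ := gv_eq tf zm lf f3 f4
  obtain ⟨-, gr⟩ := gv_eq tr (fun j _ => zm (N - j) (by omega)) lr g3 g4
  have md := mid 37 (by omega) lf lr (fun _ _ => lamf_bd _ _) fun _ _ => lamf_bd _ _
  set Λ : ℕ → ℤ := fun j => lamf (sb S (lo + j)) (36028797018963968 + seg x a b a' b' j * ω (60 * lo + c1 + 60 * j)) with hΛ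
  set z : ℕ → ℤ := fun j => 1125968626319360 + seg x α β α' β' j * ρ (60 * lo + c1 + 60 * j) with hz
  have Λ0 : ∀ j, 0 ≤ Λ j ∧ Λ j < 65536 := fun j => lamf_bd _ _
  have k0 : ∀ j, 0 ≤ kap N κ j ∧ kap N κ j ≤ 16384 := fun j => by
    unfold kap
    split_ifs <;> omega
  obtain ⟨n, rfl⟩ := Nat.exists_eq_add_one.2 p1
  obtain ⟨Q, q1, q2, q3⟩ := lev1_sound (g := fun j => Λ j + (8192 + kap (n + 1) κ j) - z j / 2 ^ 37) hm' (by omega) (by
      refine (sum_le_card_nsmul _ _ (90112 ^ 2) fun j hj => ?_).trans ?_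
      · have h1 : 0 ≤ z j ∧ z j < 2 ^ 51 := z1 j (mem_range.1 hj)
        have h2 := Λ0 j
        have h3 := k0 j
        exact sq_le_sq' (by omega) (by omega)
      · rw [card_range, nsmul_eq_mul]
        omega) gf
    (gr.trans (enc_congr fun j hj => by
      have : kap (n + 1) κ j = kap (n + 1) κ (n + 1 - j) := by
        unfold kap
        split_ifs <;> omega
      rw [this]; rfl)) (by rw [← ones_shift]; exact k1)
  obtain ⟨c, e1, e2⟩ := boxAna _ _ Q m hm q1 q2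
  refine ⟨fun j => (Λ j).toNat, _, c, fun j _ hj => hS.safe ?_, ?_, ?_, e2.trans ?_, e1⟩
  · by_contra h
    exact hj (by simp [hΛ, lamf, h])
  · have h1 : ∑ j ∈ range (n + 1 + 1), Λ j ^ 2 ≤ b2 := by
      refine le_trans (le_of_eq ?_) (md.ge.trans (Nat.cast_le.2 (Nat.le_of_ble_eq_true k2)))
      refine sum_congr rfl fun j hj => ?_
      rw [Nat.add_sub_cancel, Nat.sub_sub_self (Nat.lt_succ_iff.1 (mem_range.1 hj)), sq]
    refine le_trans (le_of_eq ?_) ((Int.cast_le (R := ℝ)).2 h1)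
    push_cast
    exact sum_congr rfl fun j _ => by rw [← Int.cast_natCast, Int.toNat_of_nonneg (Λ0 j).1]
  · have h1 : ∑ j ∈ range (n + 1 + 1), (kap (n + 1) κ j : ℝ) = 2 * κ := by
      have h : ∑ j ∈ range (n + 1 + 1), kap (n + 1) κ j = 2 * κ := by simp [kap, sum_add_distrib, two_mul]
      exact_mod_cast h
    rw [← h1, ← Nat.cast_add_one, ← nsmul_eq_mul, ← card_range (n + 1 + 1), ← sum_const, card_range, ← sum_add_distrib]
    refine sum_le_sum fun j hj => ?_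
    have h2 := ht j (mem_range.1 hj)
    have h3 := r2 (60 * lo + c1 + 60 * j)
    have h4 : (0 : ℝ) ≤ kap (n + 1) κ j := by exact_mod_cast (k0 j).1
    have h5 : (t j : ℝ) ≤ Y := by exact_mod_cast h2.2
    have h6 : |2 ^ 37 * (z j / 2 ^ 37 - 8192) - t j * ρ (60 * lo + c1 + 60 * j)| ≤ 2 ^ 36 := by
      rw [hz, h2.1, abs_le]
      dsimp only
      omega
    have h7 : |(2 : ℝ) ^ 37 * (((z j / 2 ^ 37 : ℤ) : ℝ) - 8192) - t j * ρ (60 * lo + c1 + 60 * j)| ≤ 2 ^ 36 := by exact_mod_cast h6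
    have h8 := mul_le_mul h5 h3 (abs_nonneg _) (by positivity)
    rw [← abs_of_nonneg (Nat.cast_nonneg (α := ℝ) (t j)), ← abs_mul] at h8
    rw [← Int.cast_natCast, Int.toNat_of_nonneg (Λ0 j).1, show 60 * (lo + j) + c1 = 60 * lo + c1 + 60 * j by ring]
    generalize z j / 2 ^ 37 = M at h7 ⊢
    push_cast
    rw [abs_le] at h7 h8 ⊢
    constructor <;> linarith [h7.1, h7.2, h8.1, h8.2]
  · unfold b8
    have := mul_le_mul_of_nonneg_left q3 (show 0 ≤ (1 + 1 / m) ^ 3 * 2 ^ 100 by positivity)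
    linarith

end Cfsg.Agent.Depth.L
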