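import Cfsg.Agent.Depth.L.S47a
import Cfsg.Agent.Depth.L.S47b
import Cfsg.Agent.Depth.L.S47c
import Cfsg.Agent.Depth.L.S47d

/-! The safe primes `60 i + 47`, `847872 ≤ i < 27515904`: bit `56 t + u` stands for `i = 491520 u + t`. -/

set_option autoImplicit false
set_option Elab.async false

namespace Cfsg.Agent.Depth.L

noncomputable def S47 : ℕ := (Nat.lor (Nat.lor S47a (Nat.shiftLeft S47b 6881280)) (Nat.shiftLeft (Nat.lor S47c (Nat.shiftLeft S47d 6881280)) 13762560))

theorem s47 : SB 56 (60 * 491520) S47 47 :=
  (SB.join 245760 14745647 13762560 (by decide) (SB.join 122880 7372847 6881280 (by decide) s47a s47b (by decide)) (SB.join 122880 22118447 6881280 (by decide) s47c s47d (by decide)) (by decide))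

end Cfsg.Agent.Depth.L
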